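import Cfsg.Agent.DegreeGraph.ModFixBase

/-!
The character correspondence for a `p`-group acting on a group with a normal Sylow `p`-subgroup.
-/

set_option autoImplicit false
set_option linter.style.haveILetI false
set_option linter.unusedSectionVars false

namespace Cfsg.Agent.DegreeGraph.ModFix

open Cfsg Cfsg.Agent
open scoped ComplexConjugate

universe u v

variable {G : Type u} [Group G] {A : Type v} [Group A]

/-- A function induced from an invariant subgroup is invariant. -/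
theorem invFun_indFun [Fintype G] (φ : A →* MulAut G) (H : Subgroup G)
    (hH : ∀ a, ∀ x ∈ H, φ a x ∈ H) {f : H → ℂ} (hf : Chars.InvFun (Chars.subAct φ H hH) f) :
    Chars.InvFun φ (indFun H f) := by
  intro a g
  rw [Chars.indFun_apply, Chars.indFun_apply]
  congr 1
  refine (Fintype.sum_equiv (φ a).toEquiv _ _ fun x => ?_).symm
  show _ = extendByZero _ _ ((φ a x)⁻¹ * φ a g * φ a x)
  rw [← map_inv, ← map_mul, ← map_mul]
  by_cases hy : x⁻¹ * g * x ∈ H
  · rw [Chars.extendByZero_of_mem _ _ hy, Chars.extendByZero_of_mem _ _ (hH a _ hy)]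
    exact (hf a ⟨_, hy⟩).symm
  · rw [Chars.extendByZero_of_not_mem _ _ hy, Chars.extendByZero_of_not_mem]
    intro h
    have h2 := hH a⁻¹ _ h
    rw [← MulAut.mul_apply, ← map_mul, inv_mul_cancel, map_one, MulAut.one_apply] at h2
    exact hy h2

/-- The Clifford correspondent of an invariant character is invariant. -/
theorem exists_invariant_correspondent [Fintype G] (φ : A →* MulAut G) {N T : Subgroup G}
    [N.Normal] [Fintype N] [Fintype T] (hN : ∀ a, ∀ n ∈ N, φ a n ∈ N)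
    (hTi : ∀ a, ∀ t ∈ T, φ a t ∈ T) (hNT : N ≤ T) {θ : N → ℂ} (hθ : IsIrrCharacter N θ)
    (hθi : Chars.InvFun (Chars.subAct φ N hN) θ) (hT : T = Chars2.inertiaSub θ) {χ : G → ℂ}
    (hχ : IsIrrCharacter G χ) (hi : Chars.InvFun φ χ)
    (hcon : classInner (fun n : N => χ n) θ ≠ 0) :
    ∃ ψ : IrrCharacter T, Chars.InvFun (Chars.subAct φ T hTi) (ψ : T → ℂ) ∧
      indFun T (ψ : T → ℂ) = χ ∧ classInner (Chars2.resSub N T hNT (ψ : T → ℂ)) θ ≠ 0 ∧
      classInner (fun t : T => χ t) (ψ : T → ℂ) = 1 ∧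
      ∀ ψ' : IrrCharacter T, classInner (fun t : T => χ t) (ψ' : T → ℂ) ≠ 0 →
        classInner (Chars2.resSub N T hNT (ψ' : T → ℂ)) θ ≠ 0 → ψ' = ψ := by
  rw [Chars2.classInner_restrict_expand N T hNT (Chars.isCharacter_of_isIrr hχ) θ] at hcon
  obtain ⟨ψ, -, hψ⟩ := Finset.exists_ne_zero_of_sum_ne_zero hcon
  obtain ⟨h, -, h1, hu⟩ := Chars2.clifford_correspondence hNT hθ hT hχ ψ.2
    (left_ne_zero_of_mul hψ) (right_ne_zero_of_mul hψ)
  refine ⟨ψ, fun a t => ?_, h, right_ne_zero_of_mul hψ, h1,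
    fun ψ' ha hb => Subtype.ext (hu ψ' ψ'.2 ha hb)⟩
  refine congrFun (hu (fun t => (ψ : T → ℂ) (Chars.subAct φ T hTi a t))
    (Chars.isIrrCharacter_comp_equiv ψ.2 (Chars.subAct φ T hTi a)) ?_ ?_) t
  · rw [show (fun t : T => χ t) = fun t : T => χ (Chars.subAct φ T hTi a t : T) from
      funext fun t => (hi a (t : G)).symm,
      Chars.classInner_comp_equiv (Chars.subAct φ T hTi a) (fun t : T => χ t) (ψ : T → ℂ), h1]
    exact one_ne_zero
  · rw [show Chars2.resSub N T hNT (fun t => (ψ : T → ℂ) (Chars.subAct φ T hTi a t)) =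
        fun n => Chars2.resSub N T hNT (ψ : T → ℂ) (Chars.subAct φ N hN a n) from rfl,
      show θ = fun n => θ (Chars.subAct φ N hN a n) from funext fun n => (hθi a n).symm,
      Chars.classInner_comp_equiv (Chars.subAct φ N hN a)]
    exact right_ne_zero_of_mul hψ

variable [Fintype G] [Finite A] {p : ℕ}

/-- The correspondence over an invariant character. -/
theorem corr (hp : p.Prime) (hA : IsPGroup p A) (φ : A →* MulAut G)
    (N : Subgroup G) [N.Normal] [Fintype N] (hN : ∀ a, ∀ n ∈ N, φ a n ∈ N) (hNp : IsPGroup p N)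
    (hidx : ¬ p ∣ N.index) (C : Subgroup G) [Fintype C]
    (hC : ∀ g : G, g ∈ C ↔ ∀ a, φ a g * g⁻¹ ∈ N) (hNC : N ≤ C)
    (hCi : ∀ a, ∀ c ∈ C, φ a c ∈ C) {θ : N → ℂ} (hθ : IsIrrCharacter N θ)
    (hθi : Chars.InvFun (Chars.subAct φ N hN) θ) : Corr p φ N C hNC hCi θ := by
  classical
  set T : Subgroup G := Chars2.inertiaSub θ with hT
  have hNT : N ≤ T := Chars2.le_inertiaSub
    (Chars.isClassFunction_of_isCharacter (Chars.isCharacter_of_isIrr hθ))
  have hTi : ∀ a, ∀ t ∈ T, φ a t ∈ T := Chars.inertiaSub_invariant φ N hN hθi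
  haveI : Fintype T := Fintype.ofFinite _
  let φT := Chars.subAct φ T hTi
  let N' := N.subgroupOf T
  let C' := C.subgroupOf T
  haveI : Fintype N' := Fintype.ofFinite _
  haveI : Fintype C' := Fintype.ofFinite _
  have hN' : ∀ a, ∀ n ∈ N', φT a n ∈ N' := fun a n hn => hN a _ hn
  have hC'i : ∀ a, ∀ c ∈ C', φT a c ∈ C' := fun a c hc => hCi a _ hc
  have hNC' : N' ≤ C' := fun n hn => hNC hn
  let eN : N' ≃* N := Subgroup.subgroupOfEquivOfLe hNT
  have hθ' : IsIrrCharacter N' (θ ∘ eN) := Chars.isIrrCharacter_comp_equiv hθ eN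
  have hinv' : Chars2.inertiaSub (θ ∘ eN) = ⊤ := Chars2.inertiaSub_eq_top fun t n => by
    have h1 := congrFun (Chars2.mem_inertiaSub.1
      (show (t : G)⁻¹ ∈ Chars2.inertiaSub θ from T.inv_mem t.2)) (eN n)
    rw [Chars2.conjFun_apply] at h1
    refine Eq.trans (congrArg θ (Subtype.ext ?_)) h1
    show (t : G) * ((n : T) : G) * (t : G)⁻¹ =
      (t : G)⁻¹⁻¹ * ((n : T) : G) * (t : G)⁻¹⁻¹⁻¹
    rw [inv_inv]
  obtain ⟨hfwd, hbwd, hpm⟩ := corr_of_inertia_top (G := T) hp hA φT N' hN'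
    (hNp.of_equiv eN.symm)
    (fun h => hidx (h.trans (Subgroup.relIndex_dvd_index_of_normal N T)))
    C' (fun t => hC (t : G)) hNC' hC'i hθ' (fun a n => hθi a (eN n)) hinv'
  -- the fixed points
  let NC := N.subgroupOf C
  haveI : Fintype NC := Fintype.ofFinite _
  let T2 := T.subgroupOf C
  haveI : Fintype T2 := Fintype.ofFinite _
  let φC := Chars.subAct φ C hCi
  have hNCi : ∀ a, ∀ n ∈ NC, φC a n ∈ NC := fun a n hn => hN a _ hn
  have hT2i : ∀ a, ∀ t ∈ T2, φC a t ∈ T2 := fun a t ht => hTi a _ ht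
  let eC : NC ≃* N := Subgroup.subgroupOfEquivOfLe hNC
  have hθC : IsIrrCharacter NC (θ ∘ eC) := Chars.isIrrCharacter_comp_equiv hθ eC
  have hθCi : Chars.InvFun (Chars.subAct φC NC hNCi) (θ ∘ eC) := fun a n => hθi a (eC n)
  have hNT2 : NC ≤ T2 := fun n hn => hNT hn
  have hT2 : T2 = Chars2.inertiaSub (θ ∘ eC) := by
    refine Chars2.inertiaSub_eq _ fun c => ?_
    rw [Subgroup.mem_subgroupOf, hT, ← Subgroup.inv_mem_iff, Chars2.mem_inertiaSub, funext_iff]
    refine (eC.toEquiv.forall_congr fun n => ?_).symm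
    rw [Chars2.conjFun_apply]
    refine Iff.of_eq (congrArg₂ Eq (congrArg θ (Subtype.ext ?_)) rfl)
    show (c : G) * ((n : C) : G) * (c : G)⁻¹ =
      (c : G)⁻¹⁻¹ * ((n : C) : G) * (c : G)⁻¹⁻¹⁻¹
    rw [inv_inv]
  have hoverC : ∀ ξ : C → ℂ, classInner (fun n : NC => ξ n) (θ ∘ eC) =
      classInner (Chars2.resSub N C hNC ξ) θ := by
    intro ξ
    rw [← Chars2.classInner_comp_mulEquiv eC (Chars2.resSub N C hNC ξ) θ]
    congr 1
  let e : C' ≃* T2 :=
    { toFun := fun x => ⟨⟨((x : T) : G), x.2⟩, (x : T).2⟩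
      invFun := fun y => ⟨⟨((y : C) : G), y.2⟩, (y : C).2⟩
      left_inv := fun x => rfl
      right_inv := fun y => rfl
      map_mul' := fun x y => rfl }
  have hoverT : ∀ ψ : T → ℂ, classInner (fun n : N' => ψ n) (θ ∘ eN) =
      classInner (Chars2.resSub N T hNT ψ) θ := by
    intro ψ
    rw [← Chars2.classInner_comp_mulEquiv eN (Chars2.resSub N T hNT ψ) θ]
    congr 1
  let eT2 : NC.subgroupOf T2 ≃* N'.subgroupOf C' :=
    { toFun := fun x => ⟨e.symm (x : T2), x.2⟩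
      invFun := fun y => ⟨e (y : C'), y.2⟩
      left_inv := fun x => rfl
      right_inv := fun y => rfl
      map_mul' := fun x y => rfl }
  have hover2 : ∀ η : T2 → ℂ, classInner (Chars2.resSub NC T2 hNT2 η) (θ ∘ eC) =
      classInner (Chars2.resSub N' C' hNC' (η ∘ e)) (θ ∘ eN) := by
    intro η
    let e2 : N' ≃* NC :=
      { toFun := fun x => ⟨⟨((x : T) : G), hNC x.2⟩, x.2⟩
        invFun := fun y => ⟨⟨((y : C) : G), hNT y.2⟩, y.2⟩
        left_inv := fun x => rfl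
        right_inv := fun y => rfl
        map_mul' := fun x y => rfl }
    rw [← Chars2.classInner_comp_mulEquiv e2]
    rfl
  -- the multiplicities agree
  have key : ∀ (χ : IrrCharacter G) (ψ : IrrCharacter T) (η : IrrCharacter T2),
      classInner (fun t : T => (χ : G → ℂ) t) (ψ : T → ℂ) = 1 →
      (∀ ψ' : IrrCharacter T, classInner (fun t : T => (χ : G → ℂ) t) (ψ' : T → ℂ) ≠ 0 →
        classInner (Chars2.resSub N T hNT (ψ' : T → ℂ)) θ ≠ 0 → ψ' = ψ) →
      classInner (Chars2.resSub NC T2 hNT2 (η : T2 → ℂ)) (θ ∘ eC) ≠ 0 →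
      ∀ ξ : C → ℂ, indFun T2 (η : T2 → ℂ) = ξ →
      classInner (fun c : C => (χ : G → ℂ) c) ξ =
        classInner (fun x : C' => (ψ : T → ℂ) x) (fun x : C' => (η : T2 → ℂ) (e x)) := by
    intro χ ψ η h1 hu hη ξ hξ
    have hχC : IsClassFunction C (fun c : C => (χ : G → ℂ) c) := Chars.isClassFunction_of_isCharacter
      (Chars.isCharacter_restrict (Chars.irr_isCharacter χ) C)
    rw [← hξ, Chars.classInner_indFun_right T2 _ hχC, ← Chars.classInner_comp_equiv e]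
    have hexp : (fun x : C' => (χ : G → ℂ) (((e x : T2) : C) : G)) =
        ∑ ψ' : IrrCharacter T, classInner (fun t : T => (χ : G → ℂ) t) (ψ' : T → ℂ) •
          fun x : C' => (ψ' : T → ℂ) x := by
      funext x
      rw [Finset.sum_apply]
      exact Chars2.apply_eq_sum (Chars.isClassFunction_of_isCharacter
        (Chars.isCharacter_restrict (Chars.irr_isCharacter χ) T)) (x : T)
    rw [show (fun x : C' => (fun t : T2 => (χ : G → ℂ) ((t : C) : G)) (e x)) = _ from hexp,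
      Chars.classInner_sum_left, Finset.sum_eq_single ψ]
    · rw [Chars.classInner_smul_left, h1, one_mul]
    · intro ψ' _ hne
      rw [Chars.classInner_smul_left]
      by_contra hz
      refine hne (hu ψ' (left_ne_zero_of_mul hz) ?_)
      rw [← hoverT]
      refine Chars.classInner_restrict_trans N' C' hNC' (Chars.irr_isCharacter ψ')
        ⟨_, Chars.isIrrCharacter_comp_equiv η.2 e⟩ (Chars.isCharacter_of_isIrr hθ')
        (right_ne_zero_of_mul hz) ?_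
      show classInner (Chars2.resSub N' C' hNC' ((η : T2 → ℂ) ∘ e)) (θ ∘ eN) ≠ 0
      rw [← hover2]
      exact hη
    · intro h; exact absurd (Finset.mem_univ _) h
  have hcorG := fun (χ : IrrCharacter G) (hi : Chars.InvFun φ (χ : G → ℂ))
      (ho : classInner (fun n : N => (χ : G → ℂ) n) θ ≠ 0) =>
    exists_invariant_correspondent φ hN hTi hNT hθ hθi hT χ.2 hi ho
  have hcorC := fun (ξ : IrrCharacter C) (hi : Chars.InvFun φC (ξ : C → ℂ))
      (ho : classInner (Chars2.resSub N C hNC (ξ : C → ℂ)) θ ≠ 0) =>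
    exists_invariant_correspondent (G := C) φC hNCi hT2i hNT2 hθC hθCi hT2 ξ.2 hi
      (by rw [hoverC]; exact ho)
  have hinvT2 : ∀ η : T2 → ℂ,
      Chars.InvFun (Chars.subAct φC T2 hT2i) η ↔
        Chars.InvFun (Chars.subAct φT C' hC'i) (η ∘ e) := by
    intro η
    exact ⟨fun h a x => h a (e x), fun h a y => h a (e.symm y)⟩
  refine ⟨fun χ hχi hχ => ?_, fun ξ hξi hξ => ?_, fun χ ξ k hχi hχ hξi hξ hk hkp => ?_⟩
  · obtain ⟨ψ, hψi, hψind, hψo, hψ1, hψu⟩ := hcorG χ hχi hχ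
    obtain ⟨η', hη'i, hη'o, ⟨m, hm, hmp⟩, hη'u⟩ := hfwd ψ hψi (by rw [hoverT]; exact hψo)
    let η : IrrCharacter T2 := (Chars.irrEquiv e.symm) η'
    have hηe : (η : T2 → ℂ) ∘ e = (η' : C' → ℂ) := funext fun x => congrArg _ (e.symm_apply_apply x)
    have hηo : classInner (Chars2.resSub NC T2 hNT2 (η : T2 → ℂ)) (θ ∘ eC) ≠ 0 := by
      rw [hover2, hηe]; exact hη'o
    have hirr := Chars2.isIrr_indFun_of_inertia hNT2 hθC hT2 η.2 hηo
    refine ⟨⟨_, hirr⟩, invFun_indFun φC T2 hT2i ((hinvT2 _).2 (by rw [hηe]; exact hη'i)), ?_,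
      ⟨m, ?_, hmp⟩, fun ξ' hξ'i hξ' hr => ?_⟩
    · rw [← hoverC]
      refine Chars.classInner_restrict_trans (G := C) NC T2 hNT2 (Chars.isCharacter_of_isIrr hirr) η
        (Chars.isCharacter_of_isIrr hθC) ?_ hηo
      intro h0
      have h1 := Chars.classInner_indFun_right T2 (η : T2 → ℂ)
        (Chars.isClassFunction_indFun T2 (η : T2 → ℂ))
      rw [Chars.classInner_self_irr hirr, h0] at h1
      exact one_ne_zero h1
    · rw [key χ ψ η hψ1 hψu hηo _ rfl, show (fun x : C' => (η : T2 → ℂ) (e x)) = _ from hηe]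
      exact hm
    · obtain ⟨η₂, hη₂i, hη₂ind, hη₂o, -, -⟩ := hcorC ξ' hξ'i hξ'
      obtain ⟨k, hk, hkp⟩ := hr
      rw [key χ ψ η₂ hψ1 hψu hη₂o _ hη₂ind] at hk
      have hee := hη'u ⟨_, Chars.isIrrCharacter_comp_equiv η₂.2 e⟩ ((hinvT2 _).1 hη₂i)
        (by rw [← hover2]; exact hη₂o) ⟨k, hk, hkp⟩
      refine Subtype.ext ?_
      show (ξ' : C → ℂ) = indFun T2 (η : T2 → ℂ)
      rw [← hη₂ind]
      congr 1
      funext y
      have := congrFun (congrArg Subtype.val hee) (e.symm y)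
      simpa [η] using this
  · obtain ⟨η, hηi, hηind, hηo, -, -⟩ := hcorC ξ hξi hξ
    obtain ⟨ψ, hψi, hψo', ⟨m, hm, hmp⟩, hψu'⟩ :=
      hbwd ⟨_, Chars.isIrrCharacter_comp_equiv η.2 e⟩ ((hinvT2 _).1 hηi)
        (by rw [← hover2]; exact hηo)
    have hψo : classInner (Chars2.resSub N T hNT (ψ : T → ℂ)) θ ≠ 0 := by
      rw [← hoverT]; exact hψo'
    have hirr := Chars2.isIrr_indFun_of_inertia hNT hθ hT ψ.2 hψo
    have hne : classInner (fun t : T => indFun T (ψ : T → ℂ) t) (ψ : T → ℂ) ≠ 0 := by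
      intro h0
      have h1 := Chars.classInner_indFun_right T (ψ : T → ℂ)
        (Chars.isClassFunction_indFun T (ψ : T → ℂ))
      rw [Chars.classInner_self_irr hirr, h0] at h1
      exact one_ne_zero h1
    have hcl := Chars2.clifford_correspondence hNT hθ hT hirr ψ.2 hne hψo
    refine ⟨⟨_, hirr⟩, invFun_indFun φ T hTi hψi,
      Chars.classInner_restrict_trans N T hNT (Chars.isCharacter_of_isIrr hirr) ψ
        (Chars.isCharacter_of_isIrr hθ) hne hψo, ⟨m, ?_, hmp⟩, fun χ' hχ'i hχ' hr => ?_⟩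
    · rw [key ⟨_, hirr⟩ ψ η hcl.2.2.1
        (fun ψ' ha hb => Subtype.ext (hcl.2.2.2 ψ' ψ'.2 ha hb)) hηo _ hηind]
      exact hm
    · obtain ⟨ψ₂, hψ₂i, hψ₂ind, hψ₂o, hψ₂1, hψ₂u⟩ := hcorG χ' hχ'i hχ'
      obtain ⟨k, hk, hkp⟩ := hr
      rw [key χ' ψ₂ η hψ₂1 hψ₂u hηo _ hηind] at hk
      obtain rfl := hψu' ψ₂ hψ₂i (by rw [hoverT]; exact hψ₂o) ⟨k, hk, hkp⟩
      exact Subtype.ext hψ₂ind.symm
  · obtain ⟨ψ, hψi, -, hψo, hψ1, hψu⟩ := hcorG χ hχi hχ
    obtain ⟨η, hηi, hηind, hηo, -, -⟩ := hcorC ξ hξi hξ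
    rw [key χ ψ η hψ1 hψu hηo _ hηind] at hk
    exact hpm ψ ⟨_, Chars.isIrrCharacter_comp_equiv η.2 e⟩ k hψi (by rw [hoverT]; exact hψo)
      ((hinvT2 _).1 hηi) (by rw [← hover2]; exact hηo) hk hkp

/-- The correspondence between invariant characters of a group with a normal Sylow `p`-subgroup
and of the fixed points modulo it. -/
theorem correspondence (hp : p.Prime) (hA : IsPGroup p A) (φ : A →* MulAut G)
    (N : Subgroup G) [N.Normal] [Fintype N] (hN : ∀ a, ∀ n ∈ N, φ a n ∈ N) (hNp : IsPGroup p N)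
    (hidx : ¬ p ∣ N.index) (C : Subgroup G) [Fintype C]
    (hC : ∀ g : G, g ∈ C ↔ ∀ a, φ a g * g⁻¹ ∈ N) (hCi : ∀ a, ∀ c ∈ C, φ a c ∈ C) :
    ∃ f : {χ : IrrCharacter G // Chars.InvFun φ (χ : G → ℂ)} →
        {ξ : IrrCharacter C // Chars.InvFun (Chars.subAct φ C hCi) (ξ : C → ℂ)},
      Function.Bijective f ∧ ∀ χ,
        (∀ ξ : {ξ : IrrCharacter C // Chars.InvFun (Chars.subAct φ C hCi) (ξ : C → ℂ)}, ∃ m : ℕ,
          classInner (fun c : C => (χ.1 : G → ℂ) c) (ξ.1 : C → ℂ) = m ∧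
            (ξ = f χ → (m : ZMod p) = 1 ∨ (m : ZMod p) = -1) ∧ (ξ ≠ f χ → p ∣ m)) ∧
        ((charDegree ((f χ).1 : C → ℂ) : ZMod p) = (charDegree (χ.1 : G → ℂ) : ZMod p) ∨
          (charDegree ((f χ).1 : C → ℂ) : ZMod p) = -(charDegree (χ.1 : G → ℂ) : ZMod p)) := by
  classical
  haveI := Fact.mk hp
  have hNC := le_of_modFix φ N hN C hC
  let φC := Chars.subAct φ C hCi
  let NC := N.subgroupOf C
  haveI : Fintype NC := Fintype.ofFinite _
  have hNCi : ∀ a, ∀ n ∈ NC, φC a n ∈ NC := fun a n hn => hN a _ hn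
  let eC : NC ≃* N := Subgroup.subgroupOfEquivOfLe hNC
  have hover : ∀ (ξ : C → ℂ) (θ : N → ℂ), classInner (fun n : NC => ξ n) (θ ∘ eC) =
      classInner (Chars2.resSub N C hNC ξ) θ := by
    intro ξ θ
    rw [← Chars2.classInner_comp_mulEquiv eC (Chars2.resSub N C hNC ξ) θ]
    congr 1
  have hfixC : ∀ ξ : {ξ : IrrCharacter C // Chars.InvFun φC (ξ : C → ℂ)},
      ∃ θ : IrrCharacter N, Chars.InvFun (Chars.subAct φ N hN) (θ : N → ℂ) ∧
        classInner (Chars2.resSub N C hNC (ξ.1 : C → ℂ)) (θ : N → ℂ) ≠ 0 := by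
    intro ξ
    obtain ⟨θC, hθi, hθo⟩ := exists_fixed_constituent (G := C) hp hA φC NC hNCi
      (fun h => hidx (h.trans (Subgroup.relIndex_dvd_index_of_normal N C))) ξ.1.2 ξ.2
    refine ⟨Chars.irrEquiv eC.symm θC, fun a n => hθi a (eC.symm n), ?_⟩
    rw [← hover]
    convert hθo using 2
    exact funext fun n => congrArg _ (eC.symm_apply_apply n)
  have hup : ∀ (χ : IrrCharacter G) (ξ : IrrCharacter C) (θ : IrrCharacter N),
      classInner (fun c : C => (χ : G → ℂ) c) (ξ : C → ℂ) ≠ 0 →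
      classInner (Chars2.resSub N C hNC (ξ : C → ℂ)) (θ : N → ℂ) ≠ 0 →
      classInner (fun n : N => (χ : G → ℂ) n) (θ : N → ℂ) ≠ 0 := fun χ ξ θ h1 h2 =>
    Chars.classInner_restrict_trans N C hNC (Chars.irr_isCharacter χ) ξ (Chars.irr_isCharacter θ)
      h1 h2
  have hrel0 : ∀ {χ : G → ℂ} {ξ : C → ℂ}, Rel p χ ξ →
      classInner (fun c : C => χ c) ξ ≠ 0 := fun ⟨m, hm, hmp⟩ h =>
    hmp (by
      rw [hm, Nat.cast_eq_zero] at h
      rw [h]; exact dvd_zero p)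
  have huniq : ∀ χ : {χ : IrrCharacter G // Chars.InvFun φ (χ : G → ℂ)},
      ∃! ξ : {ξ : IrrCharacter C // Chars.InvFun φC (ξ : C → ℂ)},
        Rel p (χ.1 : G → ℂ) (ξ.1 : C → ℂ) := by
    intro χ
    obtain ⟨θ, hθi, hθ⟩ := exists_fixed_constituent hp hA φ N hN hidx χ.1.2 χ.2
    obtain ⟨ξ, hξi, hξo, hr, hu⟩ :=
      (corr hp hA φ N hN hNp hidx C hC hNC hCi θ.2 hθi).1 χ.1 χ.2 hθ
    refine ⟨⟨ξ, hξi⟩, hr, fun ξ' hr' => Subtype.ext (hu ξ'.1 ξ'.2 ?_ hr')⟩
    obtain ⟨θ', hθ'i, hθ'⟩ := hfixC ξ'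
    obtain ⟨g, hg⟩ := Chars2.clifford_constituent χ.1.2 θ.2 hθ θ'.2
      (hup χ.1 ξ'.1 θ' (hrel0 hr') hθ')
    obtain ⟨c, hc, hc'⟩ := conj_by_modFix hp hA φ N hN hidx C hC
      (Chars.isClassFunction_irr θ) hθi g (hg ▸ hθ'i)
    rw [← hover]
    rw [← hover, hg, ← hc'] at hθ'
    rw [← Chars2.classInner_restrict_conjFun (Chars.isClassFunction_irr ξ'.1)
      ((θ : N → ℂ) ∘ eC) (⟨c, hc⟩ : C)]
    convert hθ' using 2
    funext n
    rw [Chars2.conjFun_apply, Function.comp_apply, Function.comp_apply, Chars2.conjFun_apply]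
    exact congrArg _ (Subtype.ext rfl)
  choose f hf hfu using huniq
  have hbij : Function.Bijective f := by
    constructor
    · intro χ χ' h
      obtain ⟨θ, hθi, hθ⟩ := hfixC (f χ)
      obtain ⟨χ₀, -, -, -, hu⟩ := (corr hp hA φ N hN hNp hidx C hC hNC hCi θ.2 hθi).2.1
        (f χ).1 (f χ).2 hθ
      have h' : Rel p (χ'.1 : G → ℂ) ((f χ).1 : C → ℂ) := by rw [h]; exact hf χ'
      exact Subtype.ext ((hu χ.1 χ.2 (hup χ.1 _ θ (hrel0 (hf χ)) hθ) (hf χ)).trans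
        (hu χ'.1 χ'.2 (hup χ'.1 _ θ (hrel0 h') hθ) h').symm)
    · intro ξ
      obtain ⟨θ, hθi, hθ⟩ := hfixC ξ
      obtain ⟨χ, hχi, -, hr, -⟩ := (corr hp hA φ N hN hNp hidx C hC hNC hCi θ.2 hθi).2.1
        ξ.1 ξ.2 hθ
      exact ⟨⟨χ, hχi⟩, (hfu ⟨χ, hχi⟩ ξ hr).symm⟩
  refine ⟨f, hbij, fun χ => ?_⟩
  choose m hm using fun ξ : IrrCharacter C => Chars.exists_classInner_eq_nat
    (Chars.isCharacter_restrict (Chars.irr_isCharacter χ.1) C) (Chars.irr_isCharacter ξ)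
  have hpm : (m (f χ).1 : ℤ) ≡ 1 [ZMOD p] ∨ (m (f χ).1 : ℤ) ≡ -1 [ZMOD p] := by
    obtain ⟨θ, hθi, hθ⟩ := hfixC (f χ)
    obtain ⟨k, hk, hkp⟩ := hf χ
    have : k = m (f χ).1 := by exact_mod_cast hk.symm.trans (hm _)
    exact (corr hp hA φ N hN hNp hidx C hC hNC hCi θ.2 hθi).2.2 χ.1 (f χ).1 _ χ.2
      (hup χ.1 _ θ (hrel0 (hf χ)) hθ) (f χ).2 hθ (hm _) (this ▸ hkp)
  have hpmZ : (m (f χ).1 : ZMod p) = 1 ∨ (m (f χ).1 : ZMod p) = -1 := by
    rcases hpm with h | h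
    · left; simpa using (ZMod.intCast_eq_intCast_iff _ _ p).2 h
    · right; simpa using (ZMod.intCast_eq_intCast_iff _ _ p).2 h
  have hdiv : ∀ ξ : {ξ : IrrCharacter C // Chars.InvFun φC (ξ : C → ℂ)},
      ξ ≠ f χ → p ∣ m ξ.1 := fun ξ hne => by
    by_contra h
    exact hne (hfu χ ξ ⟨_, hm _, h⟩)
  refine ⟨fun ξ => ⟨m ξ.1, hm _, fun h => h ▸ hpmZ, hdiv ξ⟩, ?_⟩
  choose d hd0 hd using fun ξ : IrrCharacter C => Chars.exists_irr_apply_one_eq ξ.2
  obtain ⟨D, -, hD⟩ := Chars.exists_irr_apply_one_eq χ.1.2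
  have hdeg : ∀ ξ : IrrCharacter C, charDegree (ξ : C → ℂ) = d ξ := fun ξ => by
    rw [charDegree, hd]; simp
  rw [hdeg, show charDegree (χ.1 : G → ℂ) = D by rw [charDegree, hD]; simp]
  letI := Chars.irrAction φC
  have hmv : ∀ (a : A) (ξ : IrrCharacter C), m (a • ξ) * d (a • ξ) = m ξ * d ξ := by
    intro a ξ
    have h1 : m (a • ξ) = m ξ := by
      have e : classInner (fun c : C => (χ.1 : G → ℂ) c) ((a • ξ : IrrCharacter C) : C → ℂ) =
          classInner (fun c : C => (χ.1 : G → ℂ) c) (ξ : C → ℂ) := by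
        refine Eq.trans ?_ (Chars.classInner_comp_equiv (φC a⁻¹) (fun c : C => (χ.1 : G → ℂ) c)
          (ξ : C → ℂ))
        congr 1
        exact funext fun c => (χ.2 a⁻¹ (c : G)).symm
      rw [hm, hm] at e
      exact_mod_cast e
    have h2 : d (a • ξ) = d ξ := by
      have e : ((a • ξ : IrrCharacter C) : C → ℂ) 1 = (ξ : C → ℂ) 1 :=
        congrArg _ (map_one (φC a⁻¹))
      rw [hd, hd] at e
      exact_mod_cast e
    rw [h1, h2]
  let S : Finset (IrrCharacter C) :=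
    Finset.univ.filter fun ξ => Chars.InvFun φC (ξ : C → ℂ)
  have hcong := Chars.congrP_sum_fixed hp hA S (fun ξ => by
      simp only [S, Finset.mem_filter, Finset.mem_univ, true_and]
      exact (Chars.irrAction_fixed_iff φC ξ).symm)
    (fun ξ => ((m ξ * d ξ : ℕ) : ℂ)) (fun ξ => isIntegral_natCast_C _)
    (fun a ξ => by rw [hmv])
  have hsum : (D : ℂ) = ∑ ξ : IrrCharacter C, ((m ξ * d ξ : ℕ) : ℂ) := by
    have h := Chars2.apply_eq_sum (Chars.isClassFunction_of_isCharacter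
      (Chars.isCharacter_restrict (Chars.irr_isCharacter χ.1) C)) 1
    simp only [hm, hd, Subgroup.coe_one, hD] at h
    rw [h]; exact Finset.sum_congr rfl fun ξ _ => by push_cast; ring
  rw [← hsum, ← Nat.cast_sum] at hcong
  have h2 := (ZMod.intCast_eq_intCast_iff _ _ p).2 ((Chars.congrP_nat hp).1 hcong)
  push_cast at h2
  rw [Finset.sum_eq_single (f χ).1] at h2
  · rcases hpmZ with h | h
    · left; rw [h2, h, one_mul]
    · right; rw [h2, h, neg_one_mul, neg_neg]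
  · intro ξ hξ hne
    have : p ∣ m ξ := hdiv ⟨ξ, (Finset.mem_filter.1 hξ).2⟩ fun h => hne (congrArg Subtype.val h)
    rw [(ZMod.natCast_eq_zero_iff _ p).2 this, zero_mul]
  · intro h
    exact absurd (show (f χ).1 ∈ S from Finset.mem_filter.2 ⟨Finset.mem_univ _, (f χ).2⟩) h
where
  isIntegral_natCast_C (n : ℕ) : IsIntegral ℤ (n : ℂ) := by
    simpa using isIntegral_algebraMap (R := ℤ) (A := ℂ) (x := (n : ℤ))

end Cfsg.Agent.DegreeGraph.ModFix
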