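import Cfsg.Agent.DegreeGraph.Permutation
import Cfsg.Agent.Chars.Induced
import Cfsg.Agent.Chars.Linear
import Cfsg.Agent.Blocks.Orth

/-!
Twisting the character induced from the extension of a character of a non-abelian minimal normal
subgroup by linear characters.
-/

namespace Cfsg.Agent.DegreeGraph

open Cfsg
open scoped ComplexConjugate

set_option linter.style.haveILetI false
set_option linter.unusedSectionVars false

universe u

/-- A character whose pullback is irreducible is irreducible. -/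
theorem isIrrCharacter_of_comp {H N : Type u} [Group H] [Finite H] [Group N] [Finite N]
    (ι : N →* H) {f : H → ℂ} (hf : IsCharacter H f) (hfi : IsIrrCharacter N (fun n => f (ι n))) :
    IsIrrCharacter H f := by
  obtain ⟨n, σ, rfl⟩ := hf
  have h : Representation.IsIrreducible (σ.comp ι : Representation ℂ N (Fin n → ℂ)) :=
    Chars.isIrreducible_of_character _ hfi
  refine ⟨n, σ, ?_, rfl⟩
  rw [Chars.isIrreducible_iff] at h ⊢
  exact ⟨h.1, fun S hS => h.2 S fun m v hv => hS (ι m) v hv⟩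

variable {G : Type u} [Group G]

/-- The linear characters trivial on a subgroup are at most as many as its index. -/
theorem card_hom_trivial_le [Finite G] (I : Subgroup G) :
    Nat.card {Φ : G →* ℂˣ // ∀ g ∈ I, Φ g = 1} ≤ I.index := by
  haveI : Finite (Abelianization G) := Finite.of_surjective _ QuotientGroup.mk_surjective
  set J : Subgroup (Abelianization G) := I.map Abelianization.of with hJ
  have hle : J.index ≤ I.index :=
    Nat.le_of_dvd (Nat.pos_of_ne_zero Subgroup.index_ne_zero_of_finite)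
      (Subgroup.index_map_dvd I QuotientGroup.mk_surjective)
  refine le_trans ?_ hle
  haveI : Finite ((Abelianization G ⧸ J) →* ℂˣ) :=
    Nat.finite_of_card_ne_zero (by
      rw [CommGroup.card_monoidHom_of_hasEnoughRootsOfUnity (Abelianization G ⧸ J) ℂ]
      exact Nat.card_pos.ne')
  calc Nat.card {Φ : G →* ℂˣ // ∀ g ∈ I, Φ g = 1}
      ≤ Nat.card ((Abelianization G ⧸ J) →* ℂˣ) := by
        refine Nat.card_le_card_of_injective (fun Φ => QuotientGroup.lift J (Abelianization.lift Φ.1)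
          (fun a ha => by
            obtain ⟨g, hg, rfl⟩ := ha
            rw [MonoidHom.mem_ker, Abelianization.lift_apply_of, Φ.2 g hg])) ?_
        intro Φ Ψ h
        refine Subtype.ext (MonoidHom.ext fun g => ?_)
        have := congrFun (congrArg DFunLike.coe h) (QuotientGroup.mk (Abelianization.of g))
        simpa using this
    _ = J.index := by
        rw [CommGroup.card_monoidHom_of_hasEnoughRootsOfUnity (Abelianization G ⧸ J) ℂ,
          Subgroup.index_eq_card]

/-- Every homomorphism into an abelian group kills a non-abelian minimal normal subgroup. -/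
theorem hom_eq_one_of_minimal (N : Subgroup G) [N.Normal]
    (hmin : ∀ M : Subgroup G, M.Normal → M ≤ N → M = ⊥ ∨ M = N) (hna : ¬ IsMulCommutative ↥N)
    {A : Type*} [CommGroup A] (Φ : G →* A) {n : G} (hn : n ∈ N) : Φ n = 1 := by
  rcases hmin (N ⊓ Φ.ker) inferInstance inf_le_left with h | h
  · refine absurd ⟨⟨fun a b => ?_⟩⟩ hna
    have hm : (a : G) * b * (a : G)⁻¹ * (b : G)⁻¹ ∈ N ⊓ Φ.ker :=
      ⟨N.mul_mem (N.mul_mem (N.mul_mem a.2 b.2) (N.inv_mem a.2)) (N.inv_mem b.2), by
        show Φ _ = 1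
        rw [ map_mul, map_mul, map_mul, map_inv, map_inv,
          mul_right_comm (Φ a) (Φ b) (Φ a)⁻¹, mul_inv_cancel, one_mul, mul_inv_cancel]⟩
    rw [h, Subgroup.mem_bot, mul_inv_eq_one, mul_inv_eq_iff_eq_mul] at hm
    exact Subtype.ext hm
  · have : n ∈ N ⊓ Φ.ker := h.symm ▸ hn
    exact MonoidHom.mem_ker.1 this.2

variable [Fintype G]

theorem indFun_apply_normal (N : Subgroup G) [N.Normal] (I : Subgroup G) (hNI : N ≤ I)
    (ψ : I → ℂ) (n : N) :
    indFun I ψ (n : G) = (Nat.card I : ℂ)⁻¹ * ∑ x : G,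
      ψ (Subgroup.inclusion hNI ((MulAut.conjNormal x).symm n)) := by
  rw [Chars.indFun_apply]
  congr 1
  refine Finset.sum_congr rfl fun x _ => ?_
  have e : ((Subgroup.inclusion hNI ((MulAut.conjNormal x).symm n) : I) : G) =
      x⁻¹ * (n : G) * x := MulAut.conjNormal_symm_apply x n
  rw [← e, Chars.extendByZero_coe]

/-- The setting: `ψ` on the inertia group extends `φ`. -/
theorem irr_indFun_of_extension (N : Subgroup G) [N.Normal] (φ : IrrCharacter N) (I : Subgroup G)
    (hI : ∀ g : G, g ∈ I ↔ irrPerm (MulAut.conjNormal g) φ = φ) (hNI : N ≤ I)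
    (ψ : IrrCharacter I)
    (hψ : ∀ n : N, (ψ : I → ℂ) (Subgroup.inclusion hNI n) = (φ : N → ℂ) n) :
    IsIrrCharacter G (indFun I (ψ : I → ℂ)) ∧
      ∀ Φ : G →* ℂˣ, (∀ n ∈ N, Φ n = 1) →
        (∀ g, (Φ g : ℂ) * indFun I (ψ : I → ℂ) g = indFun I (ψ : I → ℂ) g) →
          ∀ g ∈ I, Φ g = 1 := by
  classical
  set χ₀ := indFun I (ψ : I → ℂ) with hχ₀
  have hchar : IsCharacter G χ₀ := Chars.isCharacter_indFun I (Chars.irr_isCharacter ψ)
  have hcardI : (Nat.card I : ℂ) ≠ 0 := Chars.subgroup_card_ne_zero I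
  -- the multiplicity of `φ`
  have hφmult : classInner (fun n : N => χ₀ n) (φ : N → ℂ) = 1 := by
    have e : (fun n : N => χ₀ n) =
        (Nat.card I : ℂ)⁻¹ • ∑ x : G, (irrPerm (MulAut.conjNormal x) φ : N → ℂ) := by
      funext n
      rw [hχ₀, indFun_apply_normal N I hNI, Pi.smul_apply, Finset.sum_apply, smul_eq_mul]
      simp only [hψ, irrPerm_apply]
    rw [e, Chars.classInner_smul_left, Chars.classInner_sum_left]
    simp only [Chars.classInner_irrCharacter, Finset.sum_boole]
    rw [show (Finset.univ.filter fun x : G => irrPerm (MulAut.conjNormal x) φ = φ).card =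
      Nat.card I by
      rw [Nat.card_eq_fintype_card, ← Fintype.card_subtype]
      exact Fintype.card_congr (Equiv.subtypeEquivRight fun x => (hI x).symm)]
    exact inv_mul_cancel₀ hcardI
  -- multiplicities in the restriction
  have hresI : IsCharacter I (fun x : I => χ₀ x) := Chars.isCharacter_restrict hchar I
  obtain ⟨m, hm, hsum⟩ := Chars.exists_eq_sum_nsmul hresI
  have hext_mult : ∀ ξ : IrrCharacter I,
      (∀ n : N, (ξ : I → ℂ) (Subgroup.inclusion hNI n) = (φ : N → ℂ) n) →
      ∀ ξ' : IrrCharacter I,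
      (∀ n : N, (ξ' : I → ℂ) (Subgroup.inclusion hNI n) = (φ : N → ℂ) n) →
      m ξ ≤ 1 ∧ (ξ ≠ ξ' → m ξ + m ξ' ≤ 1) := by
    intro ξ hξ ξ' hξ'
    have hk : ∀ ζ : IrrCharacter I, ∃ k : ℕ,
        classInner (fun n : N => (ζ : I → ℂ) (Subgroup.inclusion hNI n)) (φ : N → ℂ) = k :=
      fun ζ => Chars.exists_classInner_eq_nat
        (Chars.isCharacter_comp (Chars.irr_isCharacter ζ) (Subgroup.inclusion hNI))
        (Chars.irr_isCharacter φ)
    choose k hk using hk
    have e : (fun n : N => χ₀ n) =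
        ∑ ζ : IrrCharacter I, (m ζ : ℂ) •
          fun n : N => (ζ : I → ℂ) (Subgroup.inclusion hNI n) := by
      funext n
      have := congrFun hsum (Subgroup.inclusion hNI n)
      simpa [Finset.sum_apply, nsmul_eq_mul] using this
    have h1 := hφmult
    rw [e, Chars.classInner_sum_left] at h1
    simp only [Chars.classInner_smul_left, hk] at h1
    have h1' : ∑ ζ : IrrCharacter I, m ζ * k ζ = 1 := by exact_mod_cast h1
    have hone : ∀ ζ : IrrCharacter I,
        (∀ n : N, (ζ : I → ℂ) (Subgroup.inclusion hNI n) = (φ : N → ℂ) n) → k ζ = 1 := by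
      intro ζ hζ
      have := hk ζ
      simp only [hζ] at this
      rw [show (fun n : N => (φ : N → ℂ) n) = (φ : N → ℂ) from rfl,
        Chars.classInner_self_irr φ.2] at this
      exact_mod_cast this.symm
    refine ⟨?_, fun hne => ?_⟩
    · have := Finset.single_le_sum (f := fun ζ => m ζ * k ζ) (fun _ _ => Nat.zero_le _)
        (Finset.mem_univ ξ)
      rw [h1'] at this
      simp only [hone ξ hξ, mul_one] at this
      exact this
    · have := Finset.sum_le_sum_of_subset (f := fun ζ => m ζ * k ζ)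
        (Finset.subset_univ ({ξ, ξ'} : Finset (IrrCharacter I)))
      rw [h1', Finset.sum_pair hne, hone ξ hξ, hone ξ' hξ', mul_one, mul_one] at this
      exact this
  have hnorm : classInner χ₀ χ₀ = (m ψ : ℂ) := by
    rw [hχ₀, Chars.classInner_indFun I _ (Chars.isClassFunction_indFun I _),
      ← Chars.classInner_conj_symm, ← hχ₀, hm, map_natCast]
  have hψ1 : m ψ = 1 := by
    have hle := (hext_mult ψ hψ ψ hψ).1
    by_contra hne
    have h0 : classInner χ₀ χ₀ = 0 := by rw [hnorm, show m ψ = 0 by omega, Nat.cast_zero]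
    rw [Chars.classInner_def, mul_eq_zero, inv_eq_zero,
      or_iff_right (Chars.card_ne_zero (G := G))] at h0
    simp only [Complex.mul_conj, ← Complex.ofReal_sum, Complex.ofReal_eq_zero] at h0
    have h1 := (Finset.sum_eq_zero_iff_of_nonneg fun x _ => Complex.normSq_nonneg _).1 h0 1
      (Finset.mem_univ _)
    rw [Complex.normSq_eq_zero, hχ₀, Chars.indFun_apply_one, mul_eq_zero] at h1
    rcases h1 with h1 | h1
    · exact Subgroup.index_ne_zero_of_finite (Nat.cast_eq_zero.1 h1)
    · exact Chars.irr_apply_one_ne_zero ψ.2 h1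
  refine ⟨Chars.isIrrCharacter_of_norm_one hchar (by rw [hnorm, hψ1, Nat.cast_one]), ?_⟩
  intro Φ hΦN hfix
  let μ : I →* ℂˣ := Φ.comp I.subtype
  have hμN : ∀ n : N, μ (Subgroup.inclusion hNI n) = 1 := fun n => hΦN _ n.2
  let ξ : IrrCharacter I := ⟨_, Chars.isIrrCharacter_mul_hom ψ.2 μ⟩
  have hξ : ∀ n : N, (ξ : I → ℂ) (Subgroup.inclusion hNI n) = (φ : N → ℂ) n := fun n => by
    show (μ (Subgroup.inclusion hNI n) : ℂ) * (ψ : I → ℂ) (Subgroup.inclusion hNI n) = _
    rw [hμN, Units.val_one, one_mul, hψ]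
  have hmξ : m ξ = m ψ := by
    have h1 := hm ξ
    have h2 : classInner (fun x : I => χ₀ x) (ξ : I → ℂ) =
        classInner (fun x : I => χ₀ x) (ψ : I → ℂ) := by
      simp only [Chars.classInner_def]
      congr 1
      refine Finset.sum_congr rfl fun x _ => ?_
      show χ₀ x * conj ((μ x : ℂ) * (ψ : I → ℂ) x) = _
      conv_lhs => rw [← hfix (x : G)]
      have hn : (μ x : ℂ) * conj (μ x : ℂ) = 1 := by
        rw [Complex.mul_conj, Complex.normSq_eq_norm_sq, Chars.norm_eq_one_of_pow_eq_one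
          (n := orderOf x) (orderOf_pos x).ne'
          (by rw [← Units.val_pow_eq_pow_val, ← map_pow, pow_orderOf_eq_one, map_one,
            Units.val_one])]
        simp
      rw [map_mul]
      show (μ x : ℂ) * χ₀ x * (conj (μ x : ℂ) * _) = _
      linear_combination (χ₀ x * conj ((ψ : I → ℂ) x)) * hn
    rw [h2, hm ψ] at h1
    exact_mod_cast h1.symm
  have hξψ : ξ = ψ := by
    by_contra hne
    have := (hext_mult ξ hξ ψ hψ).2 hne
    omega
  have hvan : ∀ x : I, μ x ≠ 1 → (ψ : I → ℂ) x = 0 := fun x hx => by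
    have h1 : (μ x : ℂ) * (ψ : I → ℂ) x = (ψ : I → ℂ) x :=
      congrFun (congrArg Subtype.val hξψ) x
    by_contra h0
    exact hx (Units.ext ((mul_eq_right₀ h0).1 h1))
  have hA : IsIrrCharacter μ.ker (fun a : μ.ker => (ψ : I → ℂ) a) := by
    refine isIrrCharacter_of_comp ((Subgroup.inclusion hNI).codRestrict μ.ker fun n => hμN n)
      (Chars.isCharacter_restrict (Chars.irr_isCharacter ψ) μ.ker) ?_
    have : (fun n : N => (ψ : I → ℂ) (Subgroup.inclusion hNI n)) = (φ : N → ℂ) := funext hψ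
    exact this.symm ▸ φ.2
  have hcard : Nat.card μ.ker = Nat.card I := by
    have h1 := Chars.classInner_self_irr hA
    have h2 := Chars.classInner_self_irr ψ.2
    rw [Chars.classInner_def, inv_mul_eq_one₀ (Chars.card_ne_zero)] at h1 h2
    rw [← Finset.sum_subtype (Finset.univ.filter fun x : I => x ∈ μ.ker) (fun x => by simp)
      (fun x : I => (ψ : I → ℂ) x * conj ((ψ : I → ℂ) x))] at h1
    rw [Finset.sum_filter_of_ne (fun x _ hx => by
      by_contra hxk
      exact hx (by rw [hvan x (fun h => hxk h), zero_mul])), ← h2] at h1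
    exact_mod_cast h1
  intro g hg
  have : μ.ker = ⊤ := Subgroup.eq_top_of_card_eq _ hcard
  have hmem : (⟨g, hg⟩ : I) ∈ μ.ker := by rw [this]; exact Subgroup.mem_top _
  exact MonoidHom.mem_ker.1 hmem

/-- Two linear extensions inducing the same character are equal. -/
theorem eq_of_indFun_eq (N : Subgroup G) [N.Normal] (φ : N →* ℂˣ) (I : Subgroup G)
    (hI : ∀ g : G, g ∈ I ↔ ∀ n : N, φ ((MulAut.conjNormal g).symm n) = φ n) (hNI : N ≤ I)
    (ψ₁ ψ₂ : I →* ℂˣ) (h₁ : ∀ n : N, ψ₁ (Subgroup.inclusion hNI n) = φ n)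
    (h₂ : ∀ n : N, ψ₂ (Subgroup.inclusion hNI n) = φ n)
    (heq : indFun I (fun x => (ψ₁ x : ℂ)) = indFun I (fun x => (ψ₂ x : ℂ))) : ψ₁ = ψ₂ := by
  classical
  let Λ : IrrCharacter N := ⟨_, Chars.isIrrCharacter_hom φ⟩
  have hI' : ∀ g : G, g ∈ I ↔ irrPerm (MulAut.conjNormal g) Λ = Λ := fun g => by
    rw [hI g]
    refine ⟨fun h => Subtype.ext (funext fun n => congrArg (fun u : ℂˣ => (u : ℂ)) (h n)),
      fun h n => Units.ext (congrFun (congrArg Subtype.val h) n)⟩
  let Ψ₁ : IrrCharacter I := ⟨_, Chars.isIrrCharacter_hom ψ₁⟩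
  let Ψ₂ : IrrCharacter I := ⟨_, Chars.isIrrCharacter_hom ψ₂⟩
  have hirr₁ := (irr_indFun_of_extension N Λ I hI' hNI Ψ₁ fun n => congrArg Units.val (h₁ n)).1
  set χ := indFun I (fun x => (ψ₁ x : ℂ)) with hχ
  have hchar : IsCharacter G χ := Chars.isCharacter_of_isIrr hirr₁
  obtain ⟨m, hm, hsum⟩ := Chars.exists_eq_sum_nsmul (Chars.isCharacter_restrict hchar I)
  have hm1 : m Ψ₁ = 1 := by
    have h := Chars.classInner_indFun I (Ψ₁ : I → ℂ) (Chars.isClassFunction_indFun I (Ψ₁ : I → ℂ))
    rw [Chars.classInner_self_irr hirr₁, ← Chars.classInner_conj_symm] at h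
    have h' : (1 : ℂ) = conj ((m Ψ₁ : ℂ)) := by rw [← hm]; exact h
    rw [map_natCast] at h'
    exact_mod_cast h'.symm
  have hm2 : m Ψ₂ = 1 := by
    have h := Chars.classInner_indFun I (Ψ₂ : I → ℂ) (Chars.isClassFunction_indFun I (Ψ₁ : I → ℂ))
    rw [show indFun I (Ψ₂ : I → ℂ) = χ from heq.symm, Chars.classInner_self_irr hirr₁,
      ← Chars.classInner_conj_symm] at h
    have h' : (1 : ℂ) = conj ((m Ψ₂ : ℂ)) := by rw [← hm]; exact h
    rw [map_natCast] at h'
    exact_mod_cast h'.symm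
  by_contra hne
  have hne' : Ψ₁ ≠ Ψ₂ := fun h => hne (MonoidHom.ext fun x =>
    Units.ext (congrFun (congrArg Subtype.val h) x))
  have hcount : classInner (fun n : N => χ n) (Λ : N → ℂ) = 1 := by
    have e : (fun n : N => χ n) =
        (Nat.card I : ℂ)⁻¹ • ∑ x : G, (irrPerm (MulAut.conjNormal x) Λ : N → ℂ) := by
      funext n
      rw [hχ, indFun_apply_normal N I hNI, Pi.smul_apply, Finset.sum_apply, smul_eq_mul]
      simp only [h₁]
      rfl
    rw [e, Chars.classInner_smul_left, Chars.classInner_sum_left]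
    simp only [Chars.classInner_irrCharacter, Finset.sum_boole]
    rw [show (Finset.univ.filter fun x : G => irrPerm (MulAut.conjNormal x) Λ = Λ).card =
      Nat.card I by
      rw [Nat.card_eq_fintype_card, ← Fintype.card_subtype]
      exact Fintype.card_congr (Equiv.subtypeEquivRight fun x => (hI' x).symm)]
    exact inv_mul_cancel₀ (Chars.subgroup_card_ne_zero I)
  have hk : ∀ ζ : IrrCharacter I, ∃ k : ℕ,
      classInner (fun n : N => (ζ : I → ℂ) (Subgroup.inclusion hNI n)) (Λ : N → ℂ) = k :=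
    fun ζ => Chars.exists_classInner_eq_nat
      (Chars.isCharacter_comp (Chars.irr_isCharacter ζ) (Subgroup.inclusion hNI))
      (Chars.irr_isCharacter Λ)
  choose k hk using hk
  have e : (fun n : N => χ n) =
      ∑ ζ : IrrCharacter I, (m ζ : ℂ) •
        fun n : N => (ζ : I → ℂ) (Subgroup.inclusion hNI n) := by
    funext n
    have := congrFun hsum (Subgroup.inclusion hNI n)
    simpa [Finset.sum_apply, nsmul_eq_mul] using this
  rw [e, Chars.classInner_sum_left] at hcount
  simp only [Chars.classInner_smul_left, hk] at hcount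
  have hc' : ∑ ζ : IrrCharacter I, m ζ * k ζ = 1 := by exact_mod_cast hcount
  have hone : ∀ Ψ : IrrCharacter I,
      (fun n : N => (Ψ : I → ℂ) (Subgroup.inclusion hNI n)) = (Λ : N → ℂ) → k Ψ = 1 := by
    intro Ψ h
    have := hk Ψ
    rw [h, Chars.classInner_self_irr Λ.2] at this
    exact_mod_cast this.symm
  have := Finset.sum_le_sum_of_subset (f := fun ζ => m ζ * k ζ)
    (Finset.subset_univ ({Ψ₁, Ψ₂} : Finset (IrrCharacter I)))
  rw [hc', Finset.sum_pair hne', hm1, hm2,
    hone Ψ₁ (funext fun n => congrArg Units.val (h₁ n)),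
    hone Ψ₂ (funext fun n => congrArg Units.val (h₂ n))] at this
  omega

/-- Twists of an irreducible character: the linear characters are at most the index times the
number of twisted images. -/
theorem card_linear_twist_le (I : Subgroup G) {χ₀ : G → ℂ} (h0 : IsIrrCharacter G χ₀)
    (hstab : ∀ Φ : G →* ℂˣ, (∀ g, (Φ g : ℂ) * χ₀ g = χ₀ g) → ∀ g ∈ I, Φ g = 1)
    (Q R : IrrCharacter G → Prop)
    (hlin : ∀ χ, Q χ → charDegree (χ : G → ℂ) = 1)
    (hR : ∀ (χ : IrrCharacter G), Q χ → ∀ η : IrrCharacter G,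
      (η : G → ℂ) = (fun g => (χ : G → ℂ) g * χ₀ g) → R η) :
    Nat.card {χ : IrrCharacter G // Q χ} ≤ I.index * Nat.card {χ : IrrCharacter G // R χ} := by
  classical
  haveI : Finite (IrrCharacter G) := Chars.irr_finite
  have hhom : ∀ χ : {χ : IrrCharacter G // Q χ}, ∃ Φ : G →* ℂˣ,
      (χ.1 : G → ℂ) = fun g => (Φ g : ℂ) := fun χ =>
    Chars.exists_hom_of_degree_one (Chars.irr_isCharacter χ.1) (by
      rw [(Blocks.charDegree_eq χ.1.2).1, hlin χ.1 χ.2, Nat.cast_one])
  choose Φ hΦ using hhom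
  let T : {χ : IrrCharacter G // Q χ} → {χ : IrrCharacter G // R χ} := fun χ =>
    ⟨⟨_, Chars.isIrrCharacter_mul_hom h0 (Φ χ)⟩, hR χ.1 χ.2 _ (by rw [hΦ χ])⟩
  haveI : Fintype {χ : IrrCharacter G // Q χ} := Fintype.ofFinite _
  haveI : Fintype {χ : IrrCharacter G // R χ} := Fintype.ofFinite _
  haveI : Finite (G →* ℂˣ) := Finite.of_equiv _ (Chars.homEquivLinear (G := G)).symm
  rw [Nat.card_eq_fintype_card, Nat.card_eq_fintype_card, ← Finset.card_univ, ← Finset.card_univ]
  refine Finset.card_le_mul_card_image_of_maps_to (f := T) (fun _ _ => Finset.mem_univ _) _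
    fun η _ => ?_
  by_cases hη : ∃ χ₁, T χ₁ = η
  · obtain ⟨χ₁, rfl⟩ := hη
    refine le_trans ?_ (card_hom_trivial_le I)
    rw [← Fintype.card_subtype, ← Nat.card_eq_fintype_card]
    refine Nat.card_le_card_of_injective (fun χ => ⟨Φ χ.1 / Φ χ₁, hstab _ fun g => ?_⟩) ?_
    · have e : (Φ χ.1 g : ℂ) * χ₀ g = (Φ χ₁ g : ℂ) * χ₀ g :=
        congrFun (congrArg (fun x : {χ : IrrCharacter G // R χ} => (x.1 : G → ℂ)) χ.2) g
      rw [MonoidHom.div_apply, Units.val_div_eq_div_val, div_mul_eq_mul_div, e,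
        mul_div_cancel_left₀ _ (Units.ne_zero _)]
    · intro χ χ' h
      refine Subtype.ext (Subtype.ext (Subtype.ext ?_))
      have e : Φ χ.1 / Φ χ₁ = Φ χ'.1 / Φ χ₁ := congrArg Subtype.val h
      rw [hΦ χ.1, hΦ χ'.1, div_left_injective (b := Φ χ₁) e]
  · rw [Finset.filter_eq_empty_iff.2 fun χ _ h => hη ⟨χ, h⟩]
    exact Nat.zero_le _

end Cfsg.Agent.DegreeGraph
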