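import Cfsg.Agent.DegreeGraph.Permutation
import Cfsg.Agent.DegreeGraph.PrincipalUnit
import Cfsg.Agent.DegreeGraph.AbelianNormal
import Mathlib.LinearAlgebra.Dimension.Constructions

/-!
A coprime action of a `p`-group on a group: as many fixed real characters as fixed real classes,
through the invertibility modulo `M` of the fixed part of the character table.
-/

namespace Cfsg.Agent.DegreeGraph

open Cfsg
open scoped ComplexConjugate

set_option linter.style.haveILetI false
set_option linter.unusedSectionVars false

universe u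

/-- Involutions intertwined by a matrix with a left inverse: the orbit counts compare. -/
theorem card_add_fixed_le {k : Type*} [Field k] {A B : Type u} [Fintype A] [Fintype B]
    [DecidableEq A] {τA : A → A} (hA : ∀ a, τA (τA a) = a) {τB : B → B} (hB : ∀ b, τB (τB b) = b)
    (Y : B → A → k) (Z : A → B → k) (hY : ∀ b a, Y (τB b) a = Y b (τA a))
    (hZ : ∀ a' a, ∑ b, Z a' b * Y b a = if a = a' then 1 else 0) :
    Fintype.card A + Nat.card {a // τA a = a} ≤ Fintype.card B + Nat.card {b // τB b = b} := by
  classical
  letI : LinearOrder A := LinearOrder.lift' (Fintype.equivFin A) (Fintype.equivFin A).injective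
  letI : LinearOrder B := LinearOrder.lift' (Fintype.equivFin B) (Fintype.equivFin B).injective
  have count : ∀ {C : Type _} [Fintype C] [LinearOrder C] (τ : C → C), (∀ c, τ (τ c) = c) →
      2 * Nat.card {c // c ≤ τ c} = Fintype.card C + Nat.card {c // τ c = c} := by
    intro C _ _ τ hτ
    simp only [Nat.card_eq_fintype_card, Fintype.card_subtype]
    have h1 : (Finset.univ.filter fun c => c < τ c).card =
        (Finset.univ.filter fun c => τ c < c).card :=
      Finset.card_bij' (fun c _ => τ c) (fun c _ => τ c)
        (fun c hc => by simpa [hτ] using hc) (fun c hc => by simpa [hτ] using hc)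
        (fun c _ => hτ c) (fun c _ => hτ c)
    have h2 : (Finset.univ.filter fun c => c ≤ τ c).card =
        (Finset.univ.filter fun c => c < τ c).card +
          (Finset.univ.filter fun c => τ c = c).card := by
      rw [← Finset.card_union_of_disjoint, ← Finset.filter_or]
      · congr 1; ext c; simp [le_iff_lt_or_eq, eq_comm]
      · rw [Finset.disjoint_filter]; intro c _ h h'; exact h.ne h'.symm
    have h3 : Fintype.card C = (Finset.univ.filter fun c => c ≤ τ c).card +
        (Finset.univ.filter fun c => τ c < c).card := by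
      rw [← Finset.card_union_of_disjoint, ← Finset.filter_or, ← Finset.card_univ]
      · congr 1; ext c; simp [le_or_gt]
      · rw [Finset.disjoint_filter]; intro c _ h h'; exact absurd h' h.not_gt
    omega
  rw [← count τA hA, ← count τB hB, Nat.card_eq_fintype_card, Nat.card_eq_fintype_card]
  refine Nat.mul_le_mul_left 2 ?_
  let ext' : ({a // a ≤ τA a} → k) → A → k := fun v a =>
    if h : a ≤ τA a then v ⟨a, h⟩ else v ⟨τA a, by rw [hA]; exact (not_le.1 h).le⟩
  have hext : ∀ v a, ext' v (τA a) = ext' v a := by
    intro v a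
    simp only [ext']
    by_cases h : a ≤ τA a
    · rw [dif_pos h]
      by_cases h' : τA a ≤ τA (τA a)
      · rw [dif_pos h']
        congr 1
        exact Subtype.ext (le_antisymm (by rwa [hA] at h') h)
      · rw [dif_neg h']
        congr 1
        exact Subtype.ext (hA a)
    · rw [dif_neg h, dif_pos (show τA a ≤ τA (τA a) by rw [hA]; exact (not_le.1 h).le)]
  let L : ({a // a ≤ τA a} → k) →ₗ[k] ({b // b ≤ τB b} → k) :=
    { toFun := fun v b => ∑ a, Y b.1 a * ext' v a
      map_add' := fun v w => funext fun b => by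
        simp only [Pi.add_apply, ← Finset.sum_add_distrib]
        refine Finset.sum_congr rfl fun a _ => ?_
        simp only [ext']; split_ifs <;> simp [mul_add]
      map_smul' := fun c v => funext fun b => by
        simp only [Pi.smul_apply, RingHom.id_apply, smul_eq_mul, Finset.mul_sum]
        refine Finset.sum_congr rfl fun a _ => ?_
        simp only [ext']; split_ifs <;> simp [mul_left_comm] }
  have hinj : Function.Injective L := by
    rw [injective_iff_map_eq_zero]
    intro v hv
    have hall : ∀ b, ∑ a, Y b a * ext' v a = 0 := by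
      intro b
      rcases le_total b (τB b) with h | h
      · exact congrFun hv ⟨b, h⟩
      · have h2 : (∑ a, Y (τB b) a * ext' v a) = 0 :=
          congrFun hv ⟨τB b, by rw [hB]; exact h⟩
        rw [← h2]
        exact Fintype.sum_equiv (Function.Involutive.toPerm τA hA) _ _ fun a => by
          simp only [hY]
          show _ = Y b (τA (τA a)) * ext' v (τA a)
          rw [hA, hext]
    funext a
    have h1 : ∑ x, (∑ b, Z a.1 b * Y b x) * ext' v x = 0 := by
      simp only [Finset.sum_mul, mul_assoc]
      rw [Finset.sum_comm]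
      simp only [← Finset.mul_sum, hall, mul_zero, Finset.sum_const_zero]
    simp only [hZ, ite_mul, one_mul, zero_mul, Finset.sum_ite_eq', Finset.mem_univ, if_true] at h1
    simpa [ext', a.2] using h1
  simpa [Module.finrank_pi] using LinearMap.finrank_le_finrank_of_injective hinj

variable {K : Type u} [Group K] [Finite K]

/-- Under a coprime action of a `p`-group, fixed irreducible characters and fixed classes are
equal in number, and so are the real ones among them. -/
theorem card_fixed_real_eq {p : ℕ} [Fact p.Prime] {P : Type*} [Group P] (hP : IsPGroup p P)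
    (hK : ¬ p ∣ Nat.card K) (φ : P →* MulAut K) :
    Nat.card {χ : IrrCharacter K // ∀ u, irrPerm (φ u) χ = χ} =
        Nat.card {C : ConjClasses K // ∀ u, clsPerm (φ u) C = C} ∧
      Nat.card {χ : IrrCharacter K // irrStar χ = χ ∧ ∀ u, irrPerm (φ u) χ = χ} =
        Nat.card {C : ConjClasses K // clsInv C = C ∧ ∀ u, clsPerm (φ u) C = C} := by
  classical
  haveI := Fintype.ofFinite K
  haveI : Finite (IrrCharacter K) := Chars.irr_finite
  obtain ⟨M, hMmax, hpM⟩ := exists_isMaximal_mem p
  haveI := hMmax
  letI actI : MulAction P (IrrCharacter K) := MulAction.compHom _ (irrPerm.comp φ)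
  letI actC : MulAction P (ConjClasses K) := MulAction.compHom _ (clsPerm.comp φ)
  let A := {C : ConjClasses K // ∀ u, clsPerm (φ u) C = C}
  let B := {χ : IrrCharacter K // ∀ u, irrPerm (φ u) χ = χ}
  have hA : ∀ C : ConjClasses K, (∀ u, clsPerm (φ u) C = C) →
      ∀ u, clsPerm (φ u) (clsInv C) = clsInv C := fun C hC u => by
    have h := congrFun (congrArg DFunLike.coe (clsInv_comm (φ u))) C
    simp only [Equiv.Perm.mul_apply, hC u] at h
    exact h.symm
  have hB : ∀ χ : IrrCharacter K, (∀ u, irrPerm (φ u) χ = χ) →
      ∀ u, irrPerm (φ u) (irrStar χ) = irrStar χ := fun χ hχ u => by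
    have h := congrFun (congrArg DFunLike.coe (irrStar_comm (φ u))) χ
    simp only [Equiv.Perm.mul_apply, hχ u] at h
    exact h.symm
  let τA : A → A := fun a => ⟨clsInv a.1, hA a.1 a.2⟩
  let τB : B → B := fun b => ⟨irrStar b.1, hB b.1 b.2⟩
  have hτA : ∀ a, τA (τA a) = a := fun a => Subtype.ext (Equiv.symm_apply_apply clsInv a.1)
  have hτB : ∀ b, τB (τB b) = b := fun b => Subtype.ext (Equiv.symm_apply_apply irrStar b.1)
  let val : IrrCharacter K → K → Blocks.loc M := fun χ g => ⟨_, Blocks.irr_memR χ g⟩
  let v : IrrCharacter K → K → Blocks.Res M := fun χ g => Blocks.residue M (val χ g)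
  let Y : B → A → Blocks.Res M := fun b a => v b.1 (Blocks.clsRep a.1)
  have hY : ∀ b a, Y (τB b) a = Y b (τA a) := fun b a => by
    have e : (irrStar b.1 : K → ℂ) (Blocks.clsRep a.1) =
        (b.1.1 : K → ℂ) (Blocks.clsRep (clsInv a.1)) := by
      conv_rhs => rw [← Blocks.mk_clsRep a.1, clsInv_mk, apply_clsRep]
      exact irrStar_apply _ _
    exact congrArg (fun x : Blocks.loc M => Blocks.residue M x) (Subtype.ext e)
  -- column orthogonality over the fixed characters
  have hcol : ∀ a' a : A, ∑ b : B, v b.1 (Blocks.clsRep a.1) * v b.1 (Blocks.clsRep a'.1)⁻¹ =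
      if a = a' then
        (Nat.card (Subgroup.centralizer ({Blocks.clsRep a.1} : Set K)) : Blocks.Res M) else 0 := by
    intro a' a
    have key := memI_sum_sub_fixed hpM hP (α := IrrCharacter K)
      (fun χ => (χ : K → ℂ) (Blocks.clsRep a.1) * (χ : K → ℂ) (Blocks.clsRep a'.1)⁻¹)
      (fun χ => Blocks.memR_mul (Blocks.irr_memR χ _) (Blocks.irr_memR χ _)) (fun u χ => by
        show (irrPerm (φ u) χ : K → ℂ) _ * (irrPerm (φ u) χ : K → ℂ) _ = _
        simp only [irrPerm_apply, map_inv]
        have e : ∀ c : ConjClasses K, clsPerm (φ u) c = c →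
            IsConj ((φ u).symm (Blocks.clsRep c)) (Blocks.clsRep c) := fun c hc => by
          have h1 : clsPerm (φ u) (ConjClasses.mk ((φ u).symm (Blocks.clsRep c))) = c := by
            rw [clsPerm_mk, MulEquiv.apply_symm_apply, Blocks.mk_clsRep]
          have h2 := (clsPerm (φ u)).injective (h1.trans hc.symm)
          exact ConjClasses.mk_eq_mk_iff_isConj.1 (h2.trans (Blocks.mk_clsRep c).symm)
        rw [Blocks.isClassFunction_eq (Chars.isClassFunction_irr χ) (e _ (a.2 u)).symm,
          Chars.char_inv_eq_conj (Chars.irr_isCharacter χ),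
          Chars.char_inv_eq_conj (Chars.irr_isCharacter χ),
          Blocks.isClassFunction_eq (Chars.isClassFunction_irr χ) (e _ (a'.2 u)).symm])
    have hsum : ∑ χ : IrrCharacter K,
        (χ : K → ℂ) (Blocks.clsRep a.1) * (χ : K → ℂ) (Blocks.clsRep a'.1)⁻¹ =
        ((if a = a' then Nat.card (Subgroup.centralizer ({Blocks.clsRep a.1} : Set K)) else 0 :
          ℕ) : ℂ) := by
      simp only [Chars.char_inv_eq_conj (Chars.irr_isCharacter _), Chars.column_orth,
        ← ConjClasses.mk_eq_mk_iff_isConj, Blocks.mk_clsRep, ← Subtype.ext_iff, apply_ite Nat.cast,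
        Nat.cast_zero]
    rw [hsum, Finset.sum_subtype _ (p := fun χ : IrrCharacter K => ∀ u, irrPerm (φ u) χ = χ)
      (fun χ => by simp only [Finset.mem_filter, Finset.mem_univ, true_and]; rfl)] at key
    have key' : Blocks.residue M (((if a = a' then
          Nat.card (Subgroup.centralizer ({Blocks.clsRep a.1} : Set K)) else 0 : ℕ)) : Blocks.loc M) =
        Blocks.residue M (∑ b : B, val b.1 (Blocks.clsRep a.1) * val b.1 (Blocks.clsRep a'.1)⁻¹) := by
      rw [Blocks.residue_eq_iff]
      simpa [val, AddSubmonoidClass.coe_finset_sum, apply_ite Nat.cast, apply_ite Subtype.val] using key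
    rw [map_natCast, map_sum] at key'
    simp only [map_mul] at key'
    rw [← key', apply_ite Nat.cast, Nat.cast_zero]
  -- row orthogonality over the fixed classes
  have hrow : ∀ b' b : B, ∑ a : A, ((Subgroup.centralizer ({Blocks.clsRep a.1} : Set K)).index :
      Blocks.Res M) * v b'.1 (Blocks.clsRep a.1)⁻¹ * v b.1 (Blocks.clsRep a.1) =
      if b = b' then (Nat.card K : Blocks.Res M) else 0 := by
    intro b' b
    have key := memI_sum_sub_fixed hpM hP (α := ConjClasses K)
      (fun C => ((Subgroup.centralizer ({Blocks.clsRep C} : Set K)).index : ℂ) *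
        (b'.1.1 : K → ℂ) (Blocks.clsRep C)⁻¹ * (b.1.1 : K → ℂ) (Blocks.clsRep C))
      (fun C => Blocks.memR_mul (Blocks.memR_mul (Blocks.memR_natCast _) (Blocks.irr_memR _ _))
        (Blocks.irr_memR _ _)) (fun u C => by
        show ((Subgroup.centralizer ({Blocks.clsRep (clsPerm (φ u) C)} : Set K)).index : ℂ) *
          (b'.1.1 : K → ℂ) (Blocks.clsRep (clsPerm (φ u) C))⁻¹ *
          (b.1.1 : K → ℂ) (Blocks.clsRep (clsPerm (φ u) C)) = _
        have h1 : IsConj (Blocks.clsRep (clsPerm (φ u) C)) (φ u (Blocks.clsRep C)) := by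
          rw [← ConjClasses.mk_eq_mk_iff_isConj, Blocks.mk_clsRep, ← clsPerm_mk, Blocks.mk_clsRep]
        have hidx : ∀ x : K, (Subgroup.centralizer ({φ u x} : Set K)).index =
            (Subgroup.centralizer ({x} : Set K)).index := fun x => by
          rw [← Chars.card_filter_isConj, ← Chars.card_filter_isConj]
          refine Finset.card_equiv (φ u).toEquiv.symm fun y => ?_
          simp only [Finset.mem_filter, Finset.mem_univ, true_and]
          constructor
          · intro h; simpa using (φ u).symm.toMonoidHom.map_isConj h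
          · intro h; simpa using (φ u).toMonoidHom.map_isConj h
        have hidx2 : ∀ {x y : K}, IsConj x y → (Subgroup.centralizer ({x} : Set K)).index =
            (Subgroup.centralizer ({y} : Set K)).index := fun {x y} h => by
          rw [← Chars.card_filter_isConj, ← Chars.card_filter_isConj]
          congr 1
          ext z
          simp only [Finset.mem_filter, Finset.mem_univ, true_and]
          exact ⟨fun hz => h.symm.trans hz, fun hz => h.trans hz⟩
        have hfix : ∀ (c : B) (x : K), (c.1.1 : K → ℂ) (φ u x) = (c.1.1 : K → ℂ) x := fun c x => by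
          conv_lhs => rw [← c.2 u, irrPerm_apply, MulEquiv.symm_apply_apply]
        rw [hidx2 h1, hidx, Chars.char_inv_eq_conj (Chars.irr_isCharacter _),
          Chars.char_inv_eq_conj (Chars.irr_isCharacter _),
          ← Blocks.isClassFunction_eq (Chars.isClassFunction_irr _) h1,
          ← Blocks.isClassFunction_eq (Chars.isClassFunction_irr _) h1, hfix, hfix])
    have hsum : ∑ C : ConjClasses K,
        ((Subgroup.centralizer ({Blocks.clsRep C} : Set K)).index : ℂ) *
          (b'.1.1 : K → ℂ) (Blocks.clsRep C)⁻¹ * (b.1.1 : K → ℂ) (Blocks.clsRep C) =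
        ((if b = b' then Nat.card K else 0 : ℕ) : ℂ) := by
      have h3 := Chars.classInner_irrCharacter b.1 b'.1
      rw [Chars.classInner_def, inv_mul_eq_iff_eq_mul₀ (Chars.card_ne_zero (G := K)),
        ← Finset.sum_fiberwise_of_maps_to (t := Finset.univ) (g := ConjClasses.mk)
          (fun k _ => Finset.mem_univ _)] at h3
      rw [apply_ite Nat.cast, Nat.cast_zero]
      simp only [Subtype.ext_iff (a1 := b), mul_ite, mul_one, mul_zero] at h3 ⊢
      rw [← h3]
      refine Finset.sum_congr rfl fun C _ => ?_
      rw [Finset.sum_congr rfl (g := fun _ => (b'.1.1 : K → ℂ) (Blocks.clsRep C)⁻¹ *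
        (b.1.1 : K → ℂ) (Blocks.clsRep C)) (fun k hk => ?_), Finset.sum_const, nsmul_eq_mul,
        mul_assoc]
      · congr 2
        rw [← Chars.card_filter_isConj]
        congr 1
        ext k
        simp only [Finset.mem_filter, Finset.mem_univ, true_and]
        conv_rhs => rw [← Blocks.mk_clsRep C, ConjClasses.mk_eq_mk_iff_isConj]
        exact isConj_comm
      · rw [← (Finset.mem_filter.1 hk).2, ← Chars.char_inv_eq_conj (Chars.irr_isCharacter b'.1),
          apply_clsRep, mul_comm, Chars.char_inv_eq_conj (Chars.irr_isCharacter b'.1),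
          Chars.char_inv_eq_conj (Chars.irr_isCharacter b'.1), apply_clsRep]
    rw [hsum, Finset.sum_subtype _ (p := fun C : ConjClasses K => ∀ u, clsPerm (φ u) C = C)
      (fun C => by simp only [Finset.mem_filter, Finset.mem_univ, true_and]; rfl)] at key
    have key' : Blocks.residue M ((if b = b' then Nat.card K else 0 : ℕ) : Blocks.loc M) =
        Blocks.residue M (∑ a : A, ((Subgroup.centralizer ({Blocks.clsRep a.1} : Set K)).index :
          Blocks.loc M) * val b'.1 (Blocks.clsRep a.1)⁻¹ * val b.1 (Blocks.clsRep a.1)) := by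
      rw [Blocks.residue_eq_iff]
      simpa [val, AddSubmonoidClass.coe_finset_sum, apply_ite Nat.cast, apply_ite Subtype.val] using key
    rw [map_natCast, map_sum] at key'
    simp only [map_mul, map_natCast] at key'
    rw [← key', apply_ite Nat.cast, Nat.cast_zero]
  have hne : ∀ n : ℕ, ¬ p ∣ n → (n : Blocks.Res M) ≠ 0 := fun n hn h => by
    rw [← map_natCast (Ideal.Quotient.mk M), Ideal.Quotient.eq_zero_iff_mem] at h
    exact hn ((Blocks.natCast_mem_iff hpM n).1 h)
  obtain ⟨Z, hZ⟩ : ∃ Z : A → B → Blocks.Res M,
      ∀ a' a, ∑ b, Z a' b * Y b a = if a = a' then 1 else 0 := ⟨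
    fun a' b => (Nat.card (Subgroup.centralizer ({Blocks.clsRep a'.1} : Set K)) : Blocks.Res M)⁻¹ *
      v b.1 (Blocks.clsRep a'.1)⁻¹, fun a' a => by
      simp only [mul_assoc, ← Finset.mul_sum, Y]
      rw [Finset.sum_congr rfl fun b _ => mul_comm _ _, hcol]
      split_ifs with h
      · subst h
        exact inv_mul_cancel₀ (hne _ fun hd => hK (hd.trans (Subgroup.card_subgroup_dvd_card _)))
      · exact mul_zero _⟩
  obtain ⟨Z', hZ'⟩ : ∃ Z' : B → A → Blocks.Res M,
      ∀ b' b, ∑ a, Z' b' a * Y b a = if b = b' then 1 else 0 := ⟨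
    fun b' a => (Nat.card K : Blocks.Res M)⁻¹ *
      (((Subgroup.centralizer ({Blocks.clsRep a.1} : Set K)).index : Blocks.Res M) *
        v b'.1 (Blocks.clsRep a.1)⁻¹), fun b' b => by
      simp only [mul_assoc, ← Finset.mul_sum, Y]
      simp only [← mul_assoc] at *
      rw [hrow]
      split_ifs with h
      · exact inv_mul_cancel₀ (hne _ hK)
      · exact mul_zero _⟩
  have e1 : Nat.card {a : A // τA a = a} =
      Nat.card {C : ConjClasses K // clsInv C = C ∧ ∀ u, clsPerm (φ u) C = C} :=
    Nat.card_congr
      { toFun := fun a => ⟨a.1.1, congrArg Subtype.val a.2, a.1.2⟩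
        invFun := fun C => ⟨⟨C.1, C.2.2⟩, Subtype.ext C.2.1⟩
        left_inv := fun _ => rfl
        right_inv := fun _ => rfl }
  have e2 : Nat.card {b : B // τB b = b} =
      Nat.card {χ : IrrCharacter K // irrStar χ = χ ∧ ∀ u, irrPerm (φ u) χ = χ} :=
    Nat.card_congr
      { toFun := fun a => ⟨a.1.1, congrArg Subtype.val a.2, a.1.2⟩
        invFun := fun C => ⟨⟨C.1, C.2.2⟩, Subtype.ext C.2.1⟩
        left_inv := fun _ => rfl
        right_inv := fun _ => rfl }
  have h1 := card_add_fixed_le hτA hτB Y Z hY hZ
  have h2 := card_add_fixed_le hτB hτA (fun a b => Y b a) Z' (fun a b => (hY b a).symm) hZ'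
  have h3 := card_add_fixed_le (τA := @id A) (fun _ => rfl) (τB := @id B) (fun _ => rfl) Y Z
    (fun _ _ => rfl) hZ
  have h4 := card_add_fixed_le (τA := @id B) (fun _ => rfl) (τB := @id A) (fun _ => rfl)
    (fun a b => Y b a) Z' (fun _ _ => rfl) hZ'
  have e3 : Nat.card {a : A // id a = a} = Nat.card A :=
    Nat.card_congr (Equiv.subtypeUnivEquiv fun _ => rfl)
  have e4 : Nat.card {a : B // id a = a} = Nat.card B :=
    Nat.card_congr (Equiv.subtypeUnivEquiv fun _ => rfl)
  rw [e3, e4] at h3 h4
  change Nat.card B = Nat.card A ∧ _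
  rw [← e1, ← e2, Nat.card_eq_fintype_card (α := A), Nat.card_eq_fintype_card (α := B)] at *
  constructor <;> omega

end Cfsg.Agent.DegreeGraph
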