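import Cfsg.Agent.DegreeGraph.PrincipalExtend
import Cfsg.Agent.DegreeGraph.PRational
import Cfsg.Agent.Chars2.ExtendChar
import Cfsg.Agent.Chars.CoprimeExt

/-!
For odd `p`, a `p`-rational invariant member of `p'`-degree of the principal block extends
`p`-rationally into the principal block over a supplement of `p`-power index.
-/

namespace Cfsg.Agent.DegreeGraph.IsoBlock

open Cfsg Cfsg.Agent

set_option linter.style.haveILetI false
set_option linter.unusedSectionVars false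

universe u

variable {p : ℕ} {M : Ideal AlgInt} [Fact p.Prime] [M.IsMaximal]
variable {G : Type u} [Group G]

/-- A representation whose character extends an irreducible one is equivalent to an extension of
the representation. -/
theorem exists_rep_ext [Finite G] {N : Subgroup G} {d k : ℕ}
    (ρ : Representation ℂ N (Fin d → ℂ)) [ρ.IsIrreducible]
    (η₀ : Representation ℂ G (Fin k → ℂ))
    (h : ∀ n : N, η₀.character n = ρ.character n) :
    ∃ η : Representation ℂ G (Fin d → ℂ), (∀ n : N, η n = ρ n) ∧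
      (∀ g, η.character g = η₀.character g) ∧
      ∀ g, LinearMap.det (η g) = LinearMap.det (η₀ g) := by
  obtain ⟨e⟩ := Chars2.equiv_of_character_eq ρ (η₀.comp N.subtype) (funext fun n => (h n).symm)
  exact ⟨(e.symm.toLinearEquiv.conjAlgEquiv ℂ).toMonoidHom.comp η₀,
    fun n => e.symm.conj_apply_self n, fun g => LinearMap.trace_conj' _ _,
    fun g => LinearMap.det_conj (η₀ g) e.symm.toLinearEquiv⟩

theorem pow_eq_one_of_coprime {M₀ : Type*} [Monoid M₀] {x : M₀} {a b : ℕ} (h : a.Coprime b)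
    (ha : x ^ a = 1) (hb : x ^ b = 1) : x = 1 := by
  simpa [h.gcd_eq_one] using pow_gcd_eq_one.mpr ⟨ha, hb⟩

theorem exists_pRational (hpM : (p : AlgInt) ∈ M) (hp : p ≠ 2) [Fintype G] {N : Subgroup G}
    [N.Normal] [Fintype N] {θ : IrrCharacter N}
    (hinv : ∀ (g : G) (n : N),
      (θ : N → ℂ) ⟨g * n * g⁻¹, ‹N.Normal›.conj_mem (n : G) n.2 g⟩ = (θ : N → ℂ) n)
    (hdeg : ¬ p ∣ charDegree (θ : N → ℂ)) {m : ℕ} (hm : ¬ p ∣ m)
    (hrat : ∀ n : N, (θ : N → ℂ) n ∈ IntermediateField.adjoin ℚ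
      ({Complex.exp (2 * Real.pi * Complex.I / m)} : Set ℂ))
    (hB : θ ∈ principalBlock M N) (Q : Sylow p N)
    (hidx : ∃ a : ℕ, (N ⊔ Subgroup.centralizer
      (((Q : Subgroup N).map N.subtype : Subgroup G) : Set G)).index = p ^ a) :
    ∃ χ : IrrCharacter G, χ ∈ principalBlock M G ∧
      (∃ n : ℕ, ¬ p ∣ n ∧ ∀ g : G, (χ : G → ℂ) g ∈ rootField n) ∧
      ∀ n : N, (χ : G → ℂ) n = (θ : N → ℂ) n := by
  classical
  haveI : ∀ H : Subgroup G, Fintype H := fun H => Fintype.ofFinite _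
  have hP := (Fact.out : p.Prime)
  set P : Subgroup G := (Q : Subgroup N).map N.subtype with hPdef
  have hPN : P ≤ N := Subgroup.map_subtype_le _
  have hPN' : ¬ p ∣ P.relIndex N := by
    show ¬ p ∣ (P.subgroupOf N).index
    rw [hPdef, Subgroup.subgroupOf, Subgroup.comap_map_eq_self_of_injective N.subtype_injective]
    exact Q.not_dvd_index' Subgroup.index_ne_zero_of_finite
  -- the supplement
  set L : Subgroup G := N ⊔ Subgroup.centralizer (P : Set G) with hLdef
  haveI hLn : L.Normal := by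
    rw [← Subgroup.normalizer_eq_top_iff, eq_top_iff, ← Sylow.normalizer_sup_eq_top Q]
    refine sup_le (fun x hx => ?_) ((le_sup_left : N ≤ L).trans Subgroup.le_normalizer)
    have hc : ∀ x ∈ Subgroup.normalizer (P : Set G), ∀ y ∈ L, x * y * x⁻¹ ∈ L := by
      intro x hx y hy
      obtain ⟨n, hn, c, hc, rfl⟩ := Subgroup.mem_sup_of_normal_left.1 hy
      rw [show x * (n * c) * x⁻¹ = x * n * x⁻¹ * (x * c * x⁻¹) by group]
      refine Subgroup.mul_mem _ (Subgroup.mem_sup_left (‹N.Normal›.conj_mem n hn x))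
        (Subgroup.mem_sup_right (Subgroup.mem_centralizer_iff.2 fun z hz => ?_))
      have hz' : x⁻¹ * z * x ∈ P := by
        have := (Subgroup.mem_normalizer_iff.1 (inv_mem hx) z).1 hz
        simpa using this
      have h1 := Subgroup.mem_centralizer_iff.1 hc _ hz'
      calc z * (x * c * x⁻¹) = x * ((x⁻¹ * z * x) * c) * x⁻¹ := by group
        _ = x * (c * (x⁻¹ * z * x)) * x⁻¹ := by rw [h1]
        _ = x * c * x⁻¹ * z := by group
    refine Subgroup.mem_normalizer_iff.2 fun y => ⟨hc x hx y, fun hy => ?_⟩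
    have := hc x⁻¹ (inv_mem hx) _ hy
    simpa [mul_assoc] using this
  have hreg : RegIn p N P := by
    intro g hg
    obtain ⟨a, ha⟩ := hidx
    refine (QuotientGroup.eq_one_iff (N := L) g).1 (orderOf_eq_one_iff.1
      (Nat.eq_one_of_dvd_coprimes (a := orderOf g) (b := p ^ a)
        (((hP.coprime_iff_not_dvd).2 hg).symm.pow_right a)
        (orderOf_map_dvd (QuotientGroup.mk' L) g) ?_))
    rw [← ha, Subgroup.index_eq_card]
    exact orderOf_dvd_natCard _
  obtain ⟨d, ρ, hirr, hρ⟩ := θ.2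
  haveI := hirr
  have hd : (θ : N → ℂ) 1 = d := by rw [← hρ, Representation.char_one, Module.finrank_fin_fun]
  have hdd : ¬ p ∣ d := by
    have : charDegree (θ : N → ℂ) = d := by simp [charDegree, hd]
    rwa [this] at hdeg
  have hd0 : d ≠ 0 := fun h => hdd (h ▸ dvd_zero p)
  set lam := Chars2.detHom ρ with hlamdef
  have hord : ¬ p ∣ orderOf lam := PRational.det_coprime hp ρ hm fun g => by rw [hρ]; exact hrat g
  have hlam : ∀ (g : G) (n : N), lam (MulAut.conjNormal g n) = lam n := by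
    intro g n
    obtain ⟨e⟩ := Chars2.equiv_of_character_eq ρ
      (ρ.comp (MulAut.conjNormal (H := N) g).toMonoidHom)
      (funext fun k => (Chars2.inv_conjNormal ρ.character (by rw [hρ]; exact hinv) g k).symm)
    refine Units.ext ?_
    rw [hlamdef, Chars2.detHom_apply, Chars2.detHom_apply]
    have h := e.conj_apply_self n
    simp only [MonoidHom.coe_comp, MulEquiv.coe_toMonoidHom, Function.comp_apply] at h
    rw [← h]
    exact LinearMap.det_conj _ _
  -- an extension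
  obtain ⟨χ₀, hχ₀, hext₀⟩ : ∃ χ : G → ℂ, IsIrrCharacter G χ ∧ ∀ n : N, χ n = (θ : N → ℂ) n := by
    refine Chars2.extends_of_sylow (θ : N → ℂ) θ.2 hinv fun q hq => ?_
    haveI := Fact.mk hq
    obtain ⟨S⟩ : Nonempty (Sylow q G) := inferInstance
    set R : Subgroup G := N ⊔ S with hRdef
    have hNR : N ≤ R := le_sup_left
    have hSidx : ¬ q ∣ R.index := fun h => S.not_dvd_index' Subgroup.index_ne_zero_of_finite
      (h.trans (Subgroup.index_dvd_of_le le_sup_right))
    obtain ⟨i, -, hi⟩ : ∃ i, i ≤ (Nat.card G).factorization q ∧ N.relIndex R = q ^ i := by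
      refine (Nat.dvd_prime_pow hq).1 ?_
      rw [hRdef, sup_comm, Subgroup.relIndex_sup_right, ← S.card_eq_multiplicity]
      exact Subgroup.relIndex_dvd_card N (S : Subgroup G)
    haveI : Fintype (N.subgroupOf R) := Fintype.ofFinite _
    let e := Subgroup.subgroupOfEquivOfLe hNR
    rcases eq_or_ne q p with rfl | hqp
    · let ρ' : Representation ℂ (N.subgroupOf R) (Fin d → ℂ) := ρ.comp e.toMonoidHom
      have hc' : ρ'.character = (θ : N → ℂ) ∘ e := funext fun x => congrFun hρ (e x)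
      haveI : ρ'.IsIrreducible := Chars.isIrreducible_of_character _
        (by rw [hc']; exact Chars.isIrrCharacter_comp_equiv θ.2 e)
      have hcop : ∀ {k : ℕ}, ¬ q ∣ k → Nat.Coprime (N.subgroupOf R).index k := fun {k} hk => by
        show Nat.Coprime (N.relIndex R) k
        rw [hi]; exact ((hq.coprime_iff_not_dvd).2 hk).pow_left i
      obtain ⟨μ, hμ, -⟩ := Chars2.exists_ext_same_order (N := N.subgroupOf R)
        (lam.comp e.toMonoidHom)
        (fun g n => (congrArg lam (Subtype.ext (by simp [e]))).trans (hlam (g : G) (e n)))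
        ((hcop hord).coprime_dvd_right (orderOf_dvd_of_pow_eq_one (MonoidHom.ext fun n => by
          rw [MonoidHom.pow_apply, MonoidHom.comp_apply, ← MonoidHom.pow_apply,
            pow_orderOf_eq_one]
          rfl)))
      obtain ⟨χ, hχ, hχN⟩ := (Chars2.extends_iff_det ((θ : N → ℂ) ∘ e)
        (Chars.isIrrCharacter_comp_equiv θ.2 e)
        (fun g n => (congrArg (θ : N → ℂ) (Subtype.ext (by simp [e]))).trans
          (hinv (g : G) (e n))) d (by simp [hd]) (hcop hdd)).2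
        ⟨Chars2.linFun μ, (Chars2.linFun_isCharacter μ).1, (Chars2.linFun_isCharacter μ).2,
          fun n => by
            rw [Chars2.detChar_eq ρ' _ hc', Chars2.linFun_apply, Chars2.linFun_apply, hμ]
            rfl⟩
      refine ⟨R, hNR, χ, hSidx, Chars.isCharacter_of_isIrr hχ, fun n => ?_⟩
      have e1 := hχN (e.symm n)
      simp only [Function.comp_apply, MulEquiv.apply_symm_apply] at e1
      exact e1
    · have hH : ¬ p ∣ N.relIndex R := fun h => by
        rw [hi] at h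
        exact hqp ((Nat.prime_dvd_prime_iff_eq hP hq).1 (hP.dvd_of_dvd_pow h)).symm
      obtain ⟨h3, h4⟩ := local_hyp hPN hPN' hreg hNR hH
      obtain ⟨χ, -, hχ⟩ := exists_ext hpM (G := R) hH (fun x hx => hPN hx) h3 h4
        (principal_transport hNR hB)
      refine ⟨R, hNR, (χ : R → ℂ), hSidx, Chars.irr_isCharacter χ, fun n => ?_⟩
      have e1 := hχ (e.symm n)
      simp only [e, Chars.irrEquiv_apply, MulEquiv.apply_symm_apply] at e1
      exact e1
  obtain ⟨χ, hχB, hχN, hJ⟩ :=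
    exists_ext_principal_of_regular hpM hPN hPN' hreg hB (χ₀ := ⟨χ₀, hχ₀⟩) hext₀
  -- twist to make the determinant of order prime to `p`
  obtain ⟨k, η₀, -, hη₀⟩ := χ.2
  obtain ⟨η, hηN, hηc, -⟩ := exists_rep_ext ρ η₀ fun n => by rw [hη₀, hρ, hχN]
  set δ := Chars2.detHom η
  set A := (Nat.card G).factorization p
  set b := Nat.card G / p ^ A
  have hab : p ^ A * b = Nat.card G := Nat.ordProj_mul_ordCompl_eq_self _ _
  have hbp : ¬ p ∣ b := Nat.not_dvd_ordCompl hP Nat.card_pos.ne'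
  have hb0 : b ≠ 0 := fun h => hbp (h ▸ dvd_zero p)
  have hcopb : (p ^ A).Coprime b := ((hP.coprime_iff_not_dvd).2 hbp).pow_left A
  have hcopd : (p ^ A).Coprime d := ((hP.coprime_iff_not_dvd).2 hdd).pow_left A
  obtain ⟨u, hu1, hu0⟩ := PRational.exists_split hcopb
  obtain ⟨x, hx1, hx0⟩ := PRational.exists_split hcopd
  obtain ⟨w₀, hw₀⟩ := Nat.modEq_zero_iff_dvd.1 hx0
  set w := w₀ * (p ^ A - 1) with hwdef
  have hdvd : p ^ A ∣ 1 + u * w * d := by
    refine Nat.modEq_zero_iff_dvd.1 ?_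
    have h1 : 1 + u * w * d ≡ 1 + 1 * (p ^ A - 1) [MOD p ^ A] := by
      rw [show u * w * d = u * x * (p ^ A - 1) by rw [hwdef, hw₀]; ring]
      exact Nat.ModEq.rfl.add (((hu1.mul hx1).mul Nat.ModEq.rfl).trans (by simp [Nat.ModEq]))
    refine h1.trans ?_
    rw [one_mul, Nat.add_sub_cancel' (Nat.one_le_pow _ _ hP.pos)]
    exact Nat.modEq_zero_iff_dvd.2 dvd_rfl
  have hlamb : orderOf lam ∣ b := by
    have h : orderOf lam ∣ p ^ A * b := by
      rw [hab]
      refine (orderOf_dvd_of_pow_eq_one (MonoidHom.ext fun n => ?_)).trans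
        (Subgroup.card_subgroup_dvd_card N)
      rw [MonoidHom.pow_apply, ← map_pow, pow_card_eq_one', map_one]
      rfl
    exact (Nat.Coprime.pow_right A ((hP.coprime_iff_not_dvd).2 hord).symm).dvd_of_dvd_mul_left h
  set μ := δ ^ (u * w) with hμdef
  have hμN : ∀ n : N, μ n = 1 := fun n => by
    have hδn : δ n = lam n := Units.ext (by
      rw [Chars2.detHom_apply, Chars2.detHom_apply, hηN])
    have hlb : lam n ^ u = 1 := by
      obtain ⟨t, ht⟩ := hlamb.trans (Nat.modEq_zero_iff_dvd.1 hu0)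
      rw [← MonoidHom.pow_apply, ht, pow_mul, pow_orderOf_eq_one, one_pow]
      rfl
    rw [hμdef, MonoidHom.pow_apply, hδn, pow_mul, hlb, one_pow]
  have hδcard : ∀ g, δ g ^ Nat.card G = 1 := fun g => by
    rw [← map_pow, pow_card_eq_one', map_one]
  have hμp : ∀ g, μ g ^ p ^ A = 1 := fun g => by
    obtain ⟨t, ht⟩ := Nat.modEq_zero_iff_dvd.1 hu0
    rw [hμdef, MonoidHom.pow_apply, ← pow_mul,
      show u * w * p ^ A = Nat.card G * (t * w) by rw [← hab, ht]; ring, pow_mul, hδcard, one_pow]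
  have hμreg : ∀ g, ¬ p ∣ orderOf g → μ g = 1 := fun g hg =>
    pow_eq_one_of_coprime (((hP.coprime_iff_not_dvd).2 hg).pow_left A) (hμp g)
      (by rw [← map_pow, pow_orderOf_eq_one, map_one])
  let η₁ : Representation ℂ G (Fin d → ℂ) :=
    { toFun := fun g => (μ g : ℂ) • η g
      map_one' := by simp
      map_mul' := fun a c => by rw [map_mul, map_mul, Units.val_mul, smul_mul_smul_comm] }
  have hη₁ : ∀ g, η₁ g = (μ g : ℂ) • η g := fun g => rfl
  have hη₁N : ∀ n : N, η₁ n = ρ n := fun n => by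
    rw [hη₁, hμN, Units.val_one, one_smul, hηN]
  have hη₁c : ∀ g, η₁.character g = (μ g : ℂ) * (χ : G → ℂ) g := fun g => by
    show LinearMap.trace ℂ _ (η₁ g) = _
    rw [hη₁, map_smul, smul_eq_mul, ← hη₀, ← hηc]
    rfl
  have hη₁d : ∀ g, LinearMap.det (η₁ g) ^ b = 1 := fun g => by
    rw [hη₁, LinearMap.det_smul, Module.finrank_fin_fun, ← Chars2.detHom_apply η,
      ← Units.val_pow_eq_pow_val, ← Units.val_mul, ← Units.val_pow_eq_pow_val]
    show (((μ g ^ d * δ g) ^ b : ℂˣ) : ℂ) = 1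
    obtain ⟨t, ht⟩ := hdvd
    rw [hμdef, MonoidHom.pow_apply, ← pow_mul, ← pow_succ, ← pow_mul,
      show (u * w * d + 1) * b = Nat.card G * t by
        rw [add_comm, ht, ← hab]; ring, pow_mul, hδcard, one_pow, Units.val_one]
  let χ₁ : IrrCharacter G := ⟨_, Chars.isIrrCharacter_mul_hom χ.2 μ⟩
  have hχ₁ : ∀ g, (χ₁ : G → ℂ) g = (μ g : ℂ) * (χ : G → ℂ) g := fun g => rfl
  have hχ₁N : ∀ n : N, (χ₁ : G → ℂ) n = (θ : N → ℂ) n := fun n => by
    rw [hχ₁, hμN, Units.val_one, one_mul, hχN]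
  have hχ₁reg : ∀ g, ¬ p ∣ orderOf g → (χ₁ : G → ℂ) g = (χ : G → ℂ) g := fun g hg => by
    rw [hχ₁, hμreg g hg, Units.val_one, one_mul]
  have hχ₁B : χ₁ ∈ principalBlock M G := by
    refine mem_principal_of_local (N := N) hpM fun g hg => ?_
    intro _
    obtain ⟨ξ, hξ, hξv⟩ := hJ (N ⊔ Subgroup.zpowers g) le_sup_left
    refine ⟨ξ, hξ, by rw [hξv, hχ₁reg g hg], ?_⟩
    rw [hξv, hχ₁reg 1 (by simpa using hP.not_dvd_one), Subgroup.coe_one]
  have hne : ∀ c ∈ Subgroup.centralizer (P : Set G), ¬ p ∣ orderOf c → (χ₁ : G → ℂ) c ≠ 0 := by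
    intro c hc hcreg h0
    set U : Subgroup G := N ⊔ Subgroup.zpowers c
    have hcU : c ∈ U := Subgroup.mem_sup_right (Subgroup.mem_zpowers c)
    obtain ⟨h3, -⟩ := local_hyp hPN hPN' hreg (le_sup_left : N ≤ U)
      (fun h => hcreg (h.trans (relIndex_sup_zpowers_dvd c)))
    obtain ⟨ξ, hξ, hξv⟩ := hJ U le_sup_left
    have := ratioOne_of_principal hpM h3 hξ ⟨c, hcU⟩ (Subgroup.mem_centralizer_iff.2 fun y hy =>
      Subtype.ext (Subgroup.mem_centralizer_iff.1 hc _ hy))
    rw [hξv, ← hχ₁reg c hcreg, h0, zero_div, zero_sub] at this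
    exact Blocks.not_memI_one (by simpa using Blocks.memI_neg this)
  -- rationality
  have hm0 : m ≠ 0 := fun h => hm (h ▸ dvd_zero p)
  have hn : ¬ p ∣ m * b := fun h => (hP.dvd_mul.1 h).elim hm hbp
  refine ⟨χ₁, hχ₁B, ⟨m * b, hn, fun g => ?_⟩, hχ₁N⟩
  refine PRational.mem_rootField_of_fixed (a := A) (Chars.irr_isCharacter χ₁) hn ?_ fun σ hσ => ?_
  · refine (orderOf_dvd_natCard g).trans ⟨p * m, ?_⟩
    rw [← hab]; ring
  have hσb : ∀ z : ℂ, z ^ b = 1 → σ z = z := fun z hz =>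
    hσ z (by rw [mul_comm, pow_mul, hz, one_pow])
  have hfix : ∀ c, ¬ p ∣ orderOf c → σ ((χ₁ : G → ℂ) c) = (χ₁ : G → ℂ) c := by
    intro c hc
    obtain ⟨z, hz, hzc, -, -⟩ := Chars.exists_eigenvalues η₁ c
    have h1 := hzc 1
    simp only [pow_one] at h1
    rw [hχ₁, ← hη₁c, h1, map_sum]
    refine Finset.sum_congr rfl fun i _ => hσb _ ?_
    obtain ⟨t, ht⟩ : orderOf c ∣ b := by
      have h : orderOf c ∣ p ^ A * b := hab.symm ▸ orderOf_dvd_natCard c
      exact (Nat.Coprime.pow_right A ((hP.coprime_iff_not_dvd).2 hc).symm).dvd_of_dvd_mul_left h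
    rw [ht, pow_mul, hz i, one_pow]
  obtain ⟨η', hη'c, hη'd⟩ := PRational.exists_rep_map σ η₁
  obtain ⟨η'', hη''N, hη''c, hη''d⟩ := exists_rep_ext ρ η' fun n => by
    rw [hη'c, hη₁c, ← hχ₁, hχ₁N, hρ]
    exact PRational.fixed_adjoin hm0 σ (fun z hz => hσ z (by rw [pow_mul, hz, one_pow])) (hrat n)
  obtain ⟨l, hlN, hl⟩ := Chars2.twist_of_extensions (N := N) ρ η₁ η'' hη₁N hη''N
  have hlc : ∀ g, σ ((χ₁ : G → ℂ) g) = (l g : ℂ) * (χ₁ : G → ℂ) g := fun g => by
    rw [hχ₁, ← hη₁c, ← hη'c, ← hη''c]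
    show LinearMap.trace ℂ _ (η'' g) = _
    rw [hl, map_smul, smul_eq_mul]
    rfl
  have hld : ∀ g, l g ^ d = 1 := fun g => by
    have h1 : LinearMap.det (η'' g) = LinearMap.det (η₁ g) := by
      rw [hη''d, hη'd]; exact hσb _ (hη₁d g)
    rw [hl, LinearMap.det_smul, Module.finrank_fin_fun] at h1
    have h0 : LinearMap.det (η₁ g) ≠ 0 := fun h => by
      have := hη₁d g
      rw [h, zero_pow hb0] at this
      exact zero_ne_one this
    exact Units.ext (by rw [Units.val_pow_eq_pow_val, (mul_eq_right₀ h0).1 h1, Units.val_one])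
  have hlp : ∀ g, l (Blocks.ppart p g) = 1 := fun g => by
    obtain ⟨y, -, -, ⟨i, hi⟩, -⟩ := Blocks.isPPart_ppart (p := p) g
    refine pow_eq_one_of_coprime (((hP.coprime_iff_not_dvd).2 hdd).pow_left i) ?_ (hld _)
    rw [← map_pow, ← hi, pow_orderOf_eq_one, map_one]
  have hl1 : ∀ g, l g = 1 := by
    have hlC : ∀ c ∈ Subgroup.centralizer (P : Set G), l c = 1 := by
      intro c hc
      obtain ⟨y, hy, -, -, hy'⟩ := Blocks.isPPart_ppart (p := p) c
      have hyC : y ∈ Subgroup.centralizer (P : Set G) := by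
        rw [show y = (Blocks.ppart p c)⁻¹ * c by rw [eq_inv_mul_iff_mul_eq, hy]]
        exact Subgroup.mul_mem _ (Subgroup.inv_mem _ (Subgroup.pow_mem _ hc _)) hc
      have h1 : l y = 1 := Units.ext ((mul_eq_right₀ (hne y hyC hy')).1
        ((hlc y).symm.trans (hfix y hy')))
      rw [← hy, map_mul, hlp, h1, one_mul]
    intro g
    obtain ⟨y, hy, -, -, hy'⟩ := Blocks.isPPart_ppart (p := p) g
    obtain ⟨n, hnN, c, hc, rfl⟩ := Subgroup.mem_sup_of_normal_left.1 (hreg y hy')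
    rw [← hy, map_mul, map_mul, hlp, hlN ⟨n, hnN⟩, hlC c hc, one_mul, one_mul]
  rw [hlc, hl1, Units.val_one, one_mul]

end Cfsg.Agent.DegreeGraph.IsoBlock
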